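import Cfsg.Agent.H12.QSRee4Core
import Cfsg.Agent.H68.ReeLite

/-!
# QS-REE4, light closure (for S2787)

`ree4L : StRee4` : an element `g` of the Ree group `²G₂(3^(2m+1))` with `g^4 = 1` has `g^2 = 1`.
This is helper12's `H12/QSRee4.lean` word for word, with the `G₂` instances of S1077 / S1026 taken
from helper96's `H96.G2L.G2Facts` and S1152 from helper68's light copy `H68.RL.l1152`, so that the
import closure contains no table of another Lie type.
-/

set_option autoImplicit false

namespace Cfsg.Agent.H52.QS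

/-- **QS-REE4** (light closure). -/
theorem ree4L : StRee4 := by
  intro K _ _ m hK g hg
  have hc : CharP K 3 := Cfsg.Agent.H22.Ree.charP_three_of_card hK
  obtain ⟨C⟩ := Cfsg.Agent.H22.Ree.exists_ctx hK (Cfsg.Agent.H96.G2L.steinberg_G2 K)
    (Cfsg.Agent.H96.G2L.factor_G2 (F := K)).1
  exact Cfsg.Agent.H12.QS.ree4_of_ctx C
    (fun a haH ha1 ha2 => (Cfsg.Agent.H68.RL.l1152 hK a haH ha1 ha2).2) g hg

example : StRee4 := ree4L

end Cfsg.Agent.H52.QS

#print axioms Cfsg.Agent.H52.QS.ree4L
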