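import Mathlib
import Cfsg.Agent.H66.HHA
import Cfsg.Agent.H80.SolvPSolv
import Cfsg.Agent.H14.Cores

set_option autoImplicit false
set_option linter.unusedSimpArgs false
set_option linter.unusedVariables false

namespace Cfsg.Agent.H52

section TransvSq

variable {V : Type*} [AddCommGroup V] [Module (ZMod 2) V]

theorem zmod2_add_self (x : V) : x + x = 0 := by
  rw [← two_smul (ZMod 2) x]
  have : (2 : ZMod 2) = 0 := by decide
  rw [this, zero_smul]

theorem zmod2_cases : ∀ a : ZMod 2, a = 0 ∨ a = 1 := by decide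

theorem zmod2_add_cancel (a b : V) : a + (a + b) = b := by
  rw [← add_assoc, zmod2_add_self, zero_add]

/-- An element of odd order that fixes `v` after two applications fixes `v`. -/
theorem odd_fix (g : V ≃ₗ[ZMod 2] V) (hg : ¬ 2 ∣ orderOf g) (v : V) (h : g (g v) = v) :
    g v = v := by
  have h2 : ∀ j : ℕ, (g ^ (2 * j)) v = v := by
    intro j
    induction j with
    | zero => simp
    | succ j ih =>
      rw [show 2 * (j + 1) = 2 * j + 1 + 1 by ring, pow_succ, pow_succ, LinearEquiv.mul_apply,
        LinearEquiv.mul_apply, h, ih]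
  obtain ⟨j, hj⟩ : ∃ j, orderOf g = 2 * j + 1 := ⟨orderOf g / 2, by omega⟩
  have h3 : (g ^ orderOf g) v = v := by rw [pow_orderOf_eq_one]; rfl
  rw [hj, pow_succ', LinearEquiv.mul_apply, h2 j] at h3
  exact h3

/-- **A transvection is not a square** in a group with a normal subgroup of odd order on which
the transvection acts nontrivially: `P² = t` has `[V, t] = {0, c}`, `k` an element of the
odd-order subgroup `Kb` (normalized by `P`) inverted by `t`. -/
theorem transv_not_square (Kb : Subgroup (V ≃ₗ[ZMod 2] V)) (hKodd : ∀ x ∈ Kb, ¬ 2 ∣ orderOf x)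
    (P k : V ≃ₗ[ZMod 2] V) (hPK : ∀ x ∈ Kb, P * x * P⁻¹ ∈ Kb) (hkK : k ∈ Kb) (hk1 : k ≠ 1)
    (htt : (P * P) * (P * P) = 1) (hinv : (P * P) * k * (P * P) = k⁻¹)
    (c : V) (hc : c ≠ 0) (hN : ∀ v, P (P v) + v = 0 ∨ P (P v) + v = c)
    (v₀ : V) (hv₀ : P (P v₀) + v₀ = c) : False := by
  obtain ⟨t, ht⟩ : ∃ t : V ≃ₗ[ZMod 2] V, t = P * P := ⟨_, rfl⟩
  rw [← ht] at htt hinv
  have htapp : ∀ v, t v = P (P v) := fun v => by rw [ht]; rfl
  have httapp : ∀ v, t (t v) = v := fun v => by
    rw [← LinearEquiv.mul_apply, htt]; rfl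
  have hinvapp : ∀ (g : V ≃ₗ[ZMod 2] V) (x y : V), g x = y → g⁻¹ y = x := by
    intro g x y h
    rw [← h, ← LinearEquiv.mul_apply, inv_mul_cancel]; rfl
  have hginv : ∀ (g : V ≃ₗ[ZMod 2] V) (x : V), g (g⁻¹ x) = x := by
    intro g x
    rw [← LinearEquiv.mul_apply, mul_inv_cancel]; rfl
  have htv : ∀ v, t v = v ∨ t v = v + c := by
    intro v
    have h' : P (P v) = P (P v) + v + v := by rw [add_assoc, zmod2_add_self, add_zero]
    rcases hN v with h | h
    · left; rw [htapp, h', h, zero_add]
    · right; rw [htapp, h', h, add_comm]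
  have htc : t c = c := by
    rw [← hv₀, map_add, ← htapp, httapp, add_comm]
  have hPc : P c = c := by
    have h1 : P c = t (P v₀) + P v₀ := by rw [← hv₀, map_add, htapp (P v₀)]
    rcases htv (P v₀) with h | h
    · exfalso
      rw [h, zmod2_add_self] at h1
      exact hc (P.injective (h1.trans (map_zero P).symm))
    · rw [h1, h]
      simp only [add_assoc, add_comm, add_left_comm, zmod2_add_self, zmod2_add_cancel, add_zero,
        zero_add]
  obtain ⟨κ, hκ⟩ : ∃ κ : V ≃ₗ[ZMod 2] V, κ = k⁻¹ * k⁻¹ := ⟨_, rfl⟩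
  have hκK : κ ∈ Kb := by rw [hκ]; exact Kb.mul_mem (Kb.inv_mem hkK) (Kb.inv_mem hkK)
  have hκodd := hKodd κ hκK
  obtain ⟨w, hw⟩ : ∃ w : V, w = k c := ⟨_, rfl⟩
  have hw0 : w ≠ 0 := by
    rw [hw]; intro h
    exact hc (k.injective (h.trans (map_zero k).symm))
  have hκeq : κ = t * (k * t * k⁻¹) := by
    rw [hκ]
    calc k⁻¹ * k⁻¹ = (t * k * t) * k⁻¹ := by rw [hinv]
      _ = t * (k * t * k⁻¹) := by group
  have hκapp : ∀ v, κ v = t (k (t (k⁻¹ v))) := fun v => by rw [hκeq]; rfl
  have ht₁v : ∀ v, k (t (k⁻¹ v)) = v ∨ k (t (k⁻¹ v)) = v + w := by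
    intro v
    rcases htv (k⁻¹ v) with h | h
    · left; rw [h, hginv]
    · right; rw [h, map_add, hginv, hw]
  have ht₁w : k (t (k⁻¹ w)) = w := by
    rw [hw, hinvapp k c (k c) rfl, htc]
  have hκw_gen : κ w = t w := by rw [hκapp, ht₁w]
  rcases htv w with htw | htw
  · rcases ht₁v c with h1 | h1
    · -- `κ` is an involution, hence trivial
      have hκc : κ c = c := by rw [hκapp, h1, htc]
      have hκw : κ w = w := by rw [hκw_gen, htw]
      have hκκ : ∀ v, κ (κ v) = v := by
        intro v
        have hform : κ v = v ∨ κ v = v + c ∨ κ v = v + w ∨ κ v = v + w + c := by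
          rw [hκapp]
          rcases ht₁v v with h | h
          · rw [h]
            rcases htv v with h' | h'
            · left; exact h'
            · right; left; exact h'
          · rw [h, map_add, htw]
            rcases htv v with h' | h'
            · right; right; left; rw [h']
            · right; right; right; rw [h']; simp only [add_assoc, add_comm, add_left_comm]
        rcases hform with h | h | h | h
        · rw [h, h]
        · rw [h, map_add, h, hκc]; simp only [add_assoc, zmod2_add_self, add_zero]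
        · rw [h, map_add, h, hκw]; simp only [add_assoc, zmod2_add_self, add_zero]
        · rw [h, map_add, map_add, h, hκw, hκc]
          simp only [add_assoc, add_comm, add_left_comm, zmod2_add_self, zmod2_add_cancel,
            add_zero, zero_add]
      have hκ1 : κ = 1 := by
        apply LinearEquiv.ext
        intro v
        exact odd_fix κ hκodd v (hκκ v)
      have hkk : ∀ v, k (k v) = v := by
        intro v
        have h2 : (k⁻¹ * k⁻¹) (k (k v)) = k (k v) := by rw [← hκ, hκ1]; rfl
        rw [LinearEquiv.mul_apply, hinvapp k (k v) (k (k v)) rfl, hinvapp k v (k v) rfl] at h2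
        exact h2.symm
      apply hk1
      apply LinearEquiv.ext
      intro v
      exact odd_fix k (hKodd k hkK) v (hkk v)
    · exfalso
      have hκc : κ c = c + w := by rw [hκapp, h1, map_add, htc, htw]
      have hκw : κ w = w := by rw [hκw_gen, htw]
      have h2 : κ (κ c) = c := by
        rw [hκc, map_add, hκc, hκw]
        simp only [add_assoc, zmod2_add_self, add_zero]
      have h3 := odd_fix κ hκodd c h2
      rw [hκc] at h3
      exact hw0 (by
        have := congrArg (fun x => c + x) h3
        simp only [zmod2_add_cancel, zmod2_add_self] at this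
        exact this)
  · rcases ht₁v c with h1 | h1
    · exfalso
      have hκc : κ c = c := by rw [hκapp, h1, htc]
      have hκw : κ w = w + c := by rw [hκw_gen, htw]
      have h2 : κ (κ w) = w := by
        rw [hκw, map_add, hκw, hκc]
        simp only [add_assoc, zmod2_add_self, add_zero]
      have h3 := odd_fix κ hκodd w h2
      rw [hκw] at h3
      exact hc (by
        have := congrArg (fun x => w + x) h3
        simp only [zmod2_add_cancel, zmod2_add_self] at this
        exact this)
    · have hκc : κ c = w := by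
        rw [hκapp, h1, map_add, htc, htw]
        simp only [add_assoc, add_comm, add_left_comm, zmod2_add_self, zmod2_add_cancel,
          add_zero, zero_add]
      have hκw : κ w = w + c := by rw [hκw_gen, htw]
      obtain ⟨u, hu⟩ : ∃ u : V, u = P w + w := ⟨_, rfl⟩
      have hPw : P w = w + u := by
        rw [hu]
        simp only [add_assoc, add_comm, add_left_comm, zmod2_add_self, zmod2_add_cancel,
          add_zero, zero_add]
      have hPu : P u = u + c := by
        rw [hu, map_add, ← htapp, htw]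
        simp only [add_assoc, add_comm, add_left_comm]
      have htu : t u = u := by
        rw [htapp, hPu, map_add, hPu, hPc]
        simp only [add_assoc, zmod2_add_self, add_zero]
      have hκu : κ u = u ∨ κ u = u + w + c := by
        rw [hκapp]
        rcases ht₁v u with h | h
        · left; rw [h, htu]
        · right; rw [h, map_add, htu, htw, add_assoc]
      have hPiu : P⁻¹ u = u + c := by
        apply hinvapp
        rw [map_add, hPu, hPc]; simp only [add_assoc, zmod2_add_self, add_zero]
      have hPiw : P⁻¹ w = w + u + c := by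
        apply hinvapp
        rw [map_add, map_add, hPw, hPu, hPc]
        simp only [add_assoc, add_comm, add_left_comm, zmod2_add_self, zmod2_add_cancel,
          add_zero, zero_add]
      have hκiwc : κ⁻¹ (w + c) = w := hinvapp κ w (w + c) hκw
      obtain ⟨z, hz⟩ : ∃ z : V ≃ₗ[ZMod 2] V, z = κ⁻¹ * (P * κ * P⁻¹) := ⟨_, rfl⟩
      have hzK : z ∈ Kb := by rw [hz]; exact Kb.mul_mem (Kb.inv_mem hκK) (hPK κ hκK)
      have hzapp : ∀ v, z v = κ⁻¹ (P (κ (P⁻¹ v))) := fun v => by rw [hz]; rfl
      rcases hκu with hκu | hκu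
      · have hκiu : κ⁻¹ u = u := hinvapp κ u u hκu
        have a1 : κ (u + c) = u + w := by rw [map_add, hκu, hκc]
        have a2 : P (u + w) = w + c := by
          rw [map_add, hPu, hPw]
          simp only [add_assoc, add_comm, add_left_comm, zmod2_add_self, zmod2_add_cancel,
              add_zero, zero_add]
        have a3 : κ (w + u + c) = u + c := by
          rw [map_add, map_add, hκw, hκu, hκc]
          simp only [add_assoc, add_comm, add_left_comm, zmod2_add_self, zmod2_add_cancel,
              add_zero, zero_add]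
        have a4 : P (u + c) = u := by
          rw [map_add, hPu, hPc]
          simp only [add_assoc, zmod2_add_self, add_zero]
        have hzu : z u = w := by rw [hzapp, hPiu, a1, a2, hκiwc]
        have hzw : z w = u := by rw [hzapp, hPiw, a3, a4, hκiu]
        have h3 := odd_fix z (hKodd z hzK) u (by rw [hzu, hzw])
        rw [hzu] at h3
        apply hw0
        have h4 : P w = 0 := by rw [hPw, ← h3, zmod2_add_self]
        exact P.injective (h4.trans (map_zero P).symm)
      · have hκiu : κ⁻¹ u = u + w := by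
          apply hinvapp
          rw [map_add, hκu, hκw]
          simp only [add_assoc, add_comm, add_left_comm, zmod2_add_self, zmod2_add_cancel,
            add_zero, zero_add]
        have a1 : κ (u + c) = u + c := by
          rw [map_add, hκu, hκc]
          simp only [add_assoc, add_comm, add_left_comm, zmod2_add_self, zmod2_add_cancel,
              add_zero, zero_add]
        have a2 : P (u + w) = w + c := by
          rw [map_add, hPu, hPw]
          simp only [add_assoc, add_comm, add_left_comm, zmod2_add_self, zmod2_add_cancel,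
              add_zero, zero_add]
        have a3 : κ (w + u + c) = u + w := by
          rw [map_add, map_add, hκw, hκu, hκc]
          simp only [add_assoc, add_comm, add_left_comm, zmod2_add_self, zmod2_add_cancel,
              add_zero, zero_add]
        have a4 : P (u + c) = u := by
          rw [map_add, hPu, hPc]
          simp only [add_assoc, zmod2_add_self, add_zero]
        have hzu : z u = u + w := by rw [hzapp, hPiu, a1, a4, hκiu]
        have hzw : z w = w := by rw [hzapp, hPiw, a3, a2, hκiwc]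
        have h3 := odd_fix z (hKodd z hzK) u (by
          rw [hzu, map_add, hzu, hzw]
          simp only [add_assoc, zmod2_add_self, add_zero])
        rw [hzu] at h3
        exact hw0 (by
          have := congrArg (fun x => u + x) h3
          simp only [zmod2_add_cancel, zmod2_add_self] at this
          exact this)

/-- In a solvable group `S` of linear automorphisms of a finite `F₂`-space with `O₂(S) = 1`, the
square of an element of order four is not a transvection. -/
theorem card_range_sq_ge_four [Finite V]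
    (S : Subgroup (V ≃ₗ[ZMod 2] V)) (hS : Group.IsSolvable ↥S) (hO2 : Cfsg.pCore 2 ↥S = ⊥)
    (P : V ≃ₗ[ZMod 2] V) (hPS : P ∈ S) (hP4 : orderOf P = 4) :
    4 ≤ Nat.card ↥(LinearMap.range (((P : V →ₗ[ZMod 2] V) - LinearMap.id) ^ 2)) := by
  classical
  haveI : Fact (Nat.Prime 2) := ⟨Nat.prime_two⟩
  haveI : Finite (V ≃ₗ[ZMod 2] V) := Finite.of_injective _ DFunLike.coe_injective
  by_contra hlt
  push Not at hlt
  obtain ⟨N, hNdef⟩ : ∃ N : V →ₗ[ZMod 2] V,
      N = ((P : V →ₗ[ZMod 2] V) - LinearMap.id) ^ 2 := ⟨_, rfl⟩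
  rw [← hNdef] at hlt
  have hneg : ∀ x : V, -x = x := fun x => neg_eq_of_add_eq_zero_left (zmod2_add_self x)
  have hNapp : ∀ v, N v = P (P v) + v := by
    intro v
    rw [hNdef]
    simp only [pow_two, Module.End.mul_apply, LinearMap.sub_apply, LinearMap.id_apply,
      LinearEquiv.coe_coe, map_sub]
    simp only [sub_eq_add_neg, hneg]
    simp only [add_assoc, add_comm, add_left_comm, zmod2_add_self, zmod2_add_cancel, add_zero,
      zero_add]
  have hcard := Module.natCard_eq_pow_finrank (K := ZMod 2) (V := LinearMap.range N)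
  rw [Nat.card_zmod] at hcard
  have hfr : Module.finrank (ZMod 2) (LinearMap.range N) ≤ 1 := by
    by_contra h
    push Not at h
    have h1 : 2 ^ 2 ≤ 2 ^ Module.finrank (ZMod 2) (LinearMap.range N) :=
      Nat.pow_le_pow_right (by norm_num) h
    omega
  obtain ⟨c₀, hc₀⟩ := finrank_le_one_iff.1 hfr
  have hval : ∀ v, N v = 0 ∨ N v = (c₀ : V) := by
    intro v
    obtain ⟨a, ha⟩ := hc₀ ⟨N v, LinearMap.mem_range_self N v⟩
    have ha' : a • (c₀ : V) = N v := congrArg Subtype.val ha
    rcases zmod2_cases a with rfl | rfl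
    · left; rw [← ha', zero_smul]
    · right; rw [← ha', one_smul]
  have hPP : P * P ≠ 1 := by
    intro h
    have h1 := orderOf_dvd_of_pow_eq_one (show P ^ 2 = 1 by rw [pow_two]; exact h)
    rw [hP4] at h1
    exact absurd h1 (by norm_num)
  have htt : (P * P) * (P * P) = 1 := by
    have h1 := pow_orderOf_eq_one P
    rw [hP4] at h1
    calc (P * P) * (P * P) = P ^ 4 := by
          rw [show (4 : ℕ) = 2 + 2 from rfl, pow_add, pow_two]
      _ = 1 := h1
  have hc : (c₀ : V) ≠ 0 := by
    intro h0
    apply hPP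
    apply LinearEquiv.ext
    intro v
    have h1 : N v = 0 := by
      rcases hval v with h | h
      · exact h
      · rw [h, h0]
    rw [hNapp] at h1
    show P (P v) = v
    calc P (P v) = P (P v) + v + v := by rw [add_assoc, zmod2_add_self, add_zero]
      _ = v := by rw [h1, zero_add]
  obtain ⟨v₀, hv₀⟩ : ∃ v₀, N v₀ = (c₀ : V) := LinearMap.mem_range.1 c₀.2
  rw [hNapp] at hv₀
  -- the odd core
  obtain ⟨Ps, hPs⟩ : ∃ Ps : ↥S, Ps = ⟨P, hPS⟩ := ⟨_, rfl⟩
  obtain ⟨ts, hts⟩ : ∃ ts : ↥S, ts = Ps * Ps := ⟨_, rfl⟩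
  have htsval : (ts : V ≃ₗ[ZMod 2] V) = P * P := by rw [hts, hPs]; rfl
  have htts : ts * ts = 1 := Subtype.ext (by rw [Subgroup.coe_mul, htsval]; exact htt)
  have hts1 : ts ≠ 1 := by
    intro h
    apply hPP
    rw [← htsval, h]; rfl
  have hti : ts⁻¹ = ts := inv_eq_of_mul_eq_one_left htts
  have hpsolv : Cfsg.IsPSolvable 2 ↥S :=
    Cfsg.Agent.H80.isPSolvable_of_isSolvable 2 _ ↥S rfl
  have hcent := Cfsg.Agent.H66.centralizer_pPrimeCore_le 2 hpsolv hO2
  have hKodd0 : ¬ 2 ∣ Nat.card (Cfsg.pPrimeCore 2 ↥S) := by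
    have h1 := Cfsg.Agent.H14.pPrimeCore_coprime 2 ↥S
    intro h2
    have h3 : 2 ∣ Nat.gcd (Nat.card (Cfsg.pPrimeCore 2 ↥S)) 2 := Nat.dvd_gcd h2 dvd_rfl
    rw [Nat.Coprime] at h1
    rw [h1] at h3
    exact absurd h3 (by norm_num)
  have hKodd1 : ∀ y ∈ Cfsg.pPrimeCore 2 ↥S, ¬ 2 ∣ orderOf y := by
    intro y hy h2
    apply hKodd0
    have h1 : orderOf (⟨y, hy⟩ : Cfsg.pPrimeCore 2 ↥S) ∣ Nat.card (Cfsg.pPrimeCore 2 ↥S) :=
      orderOf_dvd_natCard _
    rw [Subgroup.orderOf_mk] at h1
    exact h2.trans h1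
  have hex : ∃ y ∈ Cfsg.pPrimeCore 2 ↥S, ts * y * ts ≠ y := by
    by_contra hcon
    push Not at hcon
    have h1 : ts ∈ Subgroup.centralizer (Cfsg.pPrimeCore 2 ↥S : Set ↥S) := by
      rw [Subgroup.mem_centralizer_iff]
      intro y hy
      have h2 := hcon y hy
      calc y * ts = (ts * y * ts) * ts := by rw [h2]
        _ = ts * y * (ts * ts) := by group
        _ = ts * y := by rw [htts, mul_one]
    have h4 := hKodd1 _ (hcent h1)
    have h5 : orderOf ts ∣ 2 := orderOf_dvd_of_pow_eq_one (by rw [pow_two]; exact htts)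
    rcases (Nat.dvd_prime Nat.prime_two).1 h5 with h | h
    · exact hts1 (orderOf_eq_one_iff.1 h)
    · exact h4 (by rw [h])
  obtain ⟨y, hyK, hy⟩ := hex
  have hKn : (Cfsg.pPrimeCore 2 ↥S).Normal := Cfsg.Agent.H14.pPrimeCore_normal 2 ↥S
  obtain ⟨k', hk'⟩ : ∃ k' : ↥S, k' = y⁻¹ * (ts * y * ts) := ⟨_, rfl⟩
  have hk'K : k' ∈ Cfsg.pPrimeCore 2 ↥S := by
    rw [hk']
    refine Subgroup.mul_mem _ (Subgroup.inv_mem _ hyK) ?_
    have h1 := hKn.conj_mem y hyK ts
    rwa [hti] at h1
  have hk'1 : k' ≠ 1 := by
    rw [hk']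
    intro h
    exact hy (inv_mul_eq_one.1 h).symm
  have hk'inv : ts * k' * ts = k'⁻¹ := by
    rw [hk']
    calc ts * (y⁻¹ * (ts * y * ts)) * ts = ts * y⁻¹ * ts * y * (ts * ts) := by group
      _ = ts * y⁻¹ * ts * y := by rw [htts, mul_one]
      _ = ts⁻¹ * y⁻¹ * ts⁻¹ * y := by rw [hti]
      _ = (y⁻¹ * (ts * y * ts))⁻¹ := by group
  refine transv_not_square ((Cfsg.pPrimeCore 2 ↥S).map S.subtype) ?_ P (k' : V ≃ₗ[ZMod 2] V) ?_
    ⟨k', hk'K, rfl⟩ ?_ htt ?_ (c₀ : V) hc ?_ v₀ hv₀
  · rintro _ ⟨x, hx, rfl⟩
    rw [Subgroup.coe_subtype, Subgroup.orderOf_coe]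
    exact hKodd1 x hx
  · rintro _ ⟨x, hx, rfl⟩
    refine ⟨Ps * x * Ps⁻¹, hKn.conj_mem x hx Ps, ?_⟩
    rw [hPs]; rfl
  · intro h
    apply hk'1
    exact Subtype.ext h
  · have h1 := congrArg Subtype.val hk'inv
    rw [Subgroup.coe_mul, Subgroup.coe_mul, htsval, Subgroup.coe_inv] at h1
    exact h1
  · intro v
    have := hval v
    rw [hNapp] at this
    exact this

end TransvSq

end Cfsg.Agent.H52
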