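import Mathlib
import Cfsg.Prelude.Def_PLocal
import Cfsg.Prelude.Def_LocalEven
import Cfsg.Agent.Helper55.SylIn
import Cfsg.Agent.H29.ThompsonInt

/-!
# Glauberman's weak closure theorem (S2799): the `J(S)` API and basic tools (helper52)
-/

set_option autoImplicit false

namespace Cfsg.Agent.H52.Wc

open Cfsg Cfsg.Agent.Helper55 Cfsg.Agent.H29

variable {G : Type*} [Group G]

theorem thompsonA_le (S : Subgroup G) : thompsonSubgroupAOf S ≤ S := by
  rw [thompsonSubgroupAOf_eq]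
  exact nJ_le 0 S

theorem thompsonA_conj (S : Subgroup G) (g : G) :
    thompsonSubgroupAOf (S.map (MulAut.conj g).toMonoidHom) =
      (thompsonSubgroupAOf S).map (MulAut.conj g).toMonoidHom := by
  rw [thompsonSubgroupAOf_eq, thompsonSubgroupAOf_eq]
  exact (nJ_map (MulAut.conj g) 0 S).symm

theorem isMulCommutative_of_comm {Y : Subgroup G} (h : ∀ a ∈ Y, ∀ b ∈ Y, a * b = b * a) :
    IsMulCommutative Y := by
  rw [← Subgroup.le_centralizer_iff_isMulCommutative]
  intro a ha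
  rw [Subgroup.mem_centralizer_iff]
  intro b hb
  exact h b hb a ha

theorem comm_of_mem_nMax {S A : Subgroup G} (hA : A ∈ nMax 0 S) :
    ∀ a ∈ A, ∀ b ∈ A, a * b = b * a := by
  intro a ha b hb
  have h1 := Subgroup.le_centralizer_iff_isMulCommutative.mpr hA.1.2.1
  exact (Subgroup.mem_centralizer_iff.mp (h1 ha) b hb).symm

theorem mem_nAb_zero {S Y : Subgroup G} (hYS : Y ≤ S) (h : ∀ a ∈ Y, ∀ b ∈ Y, a * b = b * a) :
    Y ∈ nAb 0 S :=
  ⟨hYS, isMulCommutative_of_comm h, fun _ _ => pow_zero _⟩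

/-- an abelian subgroup of `S` centralizing a member of `𝒜(S)` lies in it. -/
theorem le_of_centralizes [Finite G] {S A Y : Subgroup G} (hA : A ∈ nMax 0 S) (hYS : Y ≤ S)
    (hY : ∀ a ∈ Y, ∀ b ∈ Y, a * b = b * a) (hYA : ∀ y ∈ Y, ∀ a ∈ A, y * a = a * y) : Y ≤ A := by
  apply absorb hA (mem_nAb_zero hYS hY)
  intro y hy
  rw [Subgroup.mem_centralizer_iff]
  intro a ha
  exact (hYA y hy a ha).symm

/-- an element of `S` centralizing a member of `𝒜(S)` lies in it. -/
theorem mem_of_centralizes [Finite G] {S A : Subgroup G} (hA : A ∈ nMax 0 S) {y : G} (hy : y ∈ S)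
    (hyA : ∀ a ∈ A, y * a = a * y) : y ∈ A := by
  have h1 : Subgroup.zpowers y ≤ A := by
    apply le_of_centralizes hA
    · rw [Subgroup.zpowers_le]; exact hy
    · intro a ha b hb
      obtain ⟨i, rfl⟩ := Subgroup.mem_zpowers_iff.mp ha
      obtain ⟨j, rfl⟩ := Subgroup.mem_zpowers_iff.mp hb
      rw [← zpow_add, ← zpow_add, add_comm]
    · intro z hz a ha
      obtain ⟨i, rfl⟩ := Subgroup.mem_zpowers_iff.mp hz
      exact ((Commute.zpow_left (show Commute y a from hyA a ha) i)).eq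
  exact h1 (Subgroup.mem_zpowers y)

theorem mem_thompsonA_of_central [Finite G] (S : Subgroup G) (x : G) (hx : x ∈ S)
    (hc : ∀ s ∈ S, x * s = s * x) : x ∈ thompsonSubgroupAOf S := by
  rw [thompsonSubgroupAOf_eq]
  obtain ⟨A, hA⟩ := exists_mem_nMax 0 S
  exact le_nJ hA (mem_of_centralizes hA hx (fun a ha => hc a (hA.1.1 ha)))

theorem normalizer_le_normalizer_thompsonA [Finite G] (S : Subgroup G) :
    Subgroup.normalizer (S : Set G) ≤
      Subgroup.normalizer ((thompsonSubgroupAOf S : Subgroup G) : Set G) := by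
  rw [thompsonSubgroupAOf_eq]
  exact normalizer_le_normalizer_nJ 0 S

/-- abelian subgroups of `S` are no larger than the members of `𝒜(S)`. -/
theorem card_le_of_mem_nMax {S A B : Subgroup G} (hA : A ∈ nMax 0 S) (hBS : B ≤ S)
    (hB : ∀ a ∈ B, ∀ b ∈ B, a * b = b * a) : Nat.card B ≤ Nat.card A :=
  hA.2 B (mem_nAb_zero hBS hB)

theorem card_mul_relIndex_of_le {H K : Subgroup G} (h : H ≤ K) :
    Nat.card H * H.relIndex K = Nat.card K := by
  have := Subgroup.card_mul_index (H.subgroupOf K)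
  rw [Nat.card_congr (Subgroup.subgroupOfEquivOfLe h).toEquiv] at this
  exact this

theorem card_mul_card_le [Finite G] (A Z : Subgroup G) :
    Nat.card A * Nat.card Z ≤ Nat.card (A ⊔ Z : Subgroup G) * Nat.card (A ⊓ Z : Subgroup G) := by
  have h1 : Nat.card (A ⊓ Z : Subgroup G) * (A ⊓ Z).relIndex A = Nat.card A :=
    card_mul_relIndex_of_le inf_le_left
  have h2 : Nat.card Z * Z.relIndex (A ⊔ Z) = Nat.card (A ⊔ Z : Subgroup G) :=
    card_mul_relIndex_of_le le_sup_right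
  have h3 : (A ⊓ Z).relIndex A = Z.relIndex A := Subgroup.inf_relIndex_left A Z
  have h4 : Z.relIndex A ≤ Z.relIndex (A ⊔ Z) :=
    Subgroup.relIndex_le_of_le_right le_sup_left Subgroup.index_ne_zero_of_finite
  calc Nat.card A * Nat.card Z = Nat.card (A ⊓ Z : Subgroup G) * Z.relIndex A * Nat.card Z := by
        rw [← h3, h1]
    _ ≤ Nat.card (A ⊓ Z : Subgroup G) * Z.relIndex (A ⊔ Z) * Nat.card Z := by gcongr
    _ = Nat.card (A ⊔ Z : Subgroup G) * Nat.card (A ⊓ Z : Subgroup G) := by rw [← h2]; ring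

/-- the relative local theorem, as a proposition on the ambient group. -/
def LocalThm (p : ℕ) (G : Type*) [Group G] : Prop :=
  ∀ (H S D : Subgroup G) (x : G), IsSylIn p H S → D ≤ H → IsPGroup p D →
    (∀ h ∈ H, ∀ d ∈ D, h * d * h⁻¹ ∈ D) → x ∈ D →
    (∀ n ∈ H, n ∈ Subgroup.normalizer ((thompsonSubgroupAOf S : Subgroup G) : Set G) →
      n * x = x * n) →
    (p ≠ 2 ∨ (∃ z ∈ S, (∀ s ∈ S, z * s = s * z) ∧ z ^ p = x) ∨
      ¬ Involves (Equiv.Perm (Fin 4)) G) →
    ∀ h ∈ H, h * x = x * h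

end Cfsg.Agent.H52.Wc
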