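import Mathlib
import Cfsg.Agent.H52.WcJ

/-!
# Glauberman's weak closure theorem (S2799): general tools (helper52)
-/

set_option autoImplicit false

namespace Cfsg.Agent.H52.Wc

open Cfsg Cfsg.Agent.Helper55 Cfsg.Agent.H29

variable {G : Type*} [Group G]

/-- conjugate subgroup `h X h⁻¹`. -/
abbrev cj (h : G) (X : Subgroup G) : Subgroup G := X.map (MulAut.conj h).toMonoidHom

theorem mem_cj {h z : G} {X : Subgroup G} : z ∈ cj h X ↔ h⁻¹ * z * h ∈ X := mem_map_conj_iff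

theorem conj_mem_cj {h z : G} {X : Subgroup G} (hz : z ∈ X) : h * z * h⁻¹ ∈ cj h X := by
  rw [mem_cj]
  simpa [mul_assoc] using hz

theorem cj_eq_of_normalizes [Finite G] {h : G} {X : Subgroup G}
    (hX : ∀ z ∈ X, h * z * h⁻¹ ∈ X) : cj h X = X := by
  apply Subgroup.eq_of_le_of_card_ge
  · rintro _ ⟨z, hz, rfl⟩
    exact hX z hz
  · exact le_of_eq (card_map_conj X h).symm

/-- a proper subgroup of a `p`-group lies in a normal subgroup of index `p`. -/
theorem exists_index_p_normal [Finite G] {p : ℕ} [Fact p.Prime] {K R : Subgroup G}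
    (hK : IsPGroup p K) (hRK : R ≤ K) (hne : R ≠ K) :
    ∃ K₁ : Subgroup G, R ≤ K₁ ∧ K₁ ≤ K ∧ (∀ k ∈ K, ∀ y ∈ K₁, k * y * k⁻¹ ∈ K₁) ∧
      Nat.card K = p * Nat.card K₁ := by
  have hp : p.Prime := Fact.out
  obtain ⟨N, hN⟩ := hK.exists_card_eq
  have hR' : IsPGroup p (R.subgroupOf K) := hK.to_subgroup _
  obtain ⟨n, hn⟩ := hR'.exists_card_eq
  have hcardR : Nat.card (R.subgroupOf K) = Nat.card R :=
    Nat.card_congr (Subgroup.subgroupOfEquivOfLe hRK).toEquiv
  have hnN : n < N := by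
    have hlt : Nat.card R < Nat.card K := by
      by_contra hcon
      rw [not_lt] at hcon
      exact hne (Subgroup.eq_of_le_of_card_ge hRK hcon)
    rw [← hcardR, hn, hN] at hlt
    exact (Nat.pow_lt_pow_iff_right hp.one_lt).mp hlt
  obtain ⟨K₁', hK₁c, hK₁R⟩ := Sylow.exists_subgroup_card_pow_prime_le p (n := n) (m := N - 1)
    (by rw [hN]; exact pow_dvd_pow p (Nat.sub_le N 1)) (R.subgroupOf K) hn (by omega)
  have hpow : p ^ N = p ^ (N - 1) * p := by
    rw [← pow_succ]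
    congr 1
    omega
  have hidx : K₁'.index = p := by
    have h1 := K₁'.card_mul_index
    rw [hK₁c, hN, hpow] at h1
    exact Nat.eq_of_mul_eq_mul_left (pow_pos hp.pos _) h1
  haveI hnorm : K₁'.Normal := by
    apply Subgroup.normal_of_index_eq_minFac_card
    rw [hidx, hN, Nat.pow_minFac (by omega), hp.minFac_eq]
  refine ⟨K₁'.map K.subtype, ?_, Subgroup.map_subtype_le _, ?_, ?_⟩
  · intro r hr
    exact ⟨⟨r, hRK hr⟩, hK₁R (Subgroup.mem_subgroupOf.mpr hr), rfl⟩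
  · rintro k hk _ ⟨y, hy, rfl⟩
    exact ⟨⟨k, hk⟩ * y * ⟨k, hk⟩⁻¹, hnorm.conj_mem y hy ⟨k, hk⟩, rfl⟩
  · rw [Subgroup.card_subtype, hK₁c, hN, hpow, mul_comm]

/-- the quadratic lemma: a `p`-element centralizing a subgroup of index at most `p` of the
abelian `p`-group `U` acts quadratically, with commutators of order dividing `p` in that
subgroup. -/
theorem quad_lemma [Finite G] {p : ℕ} [Fact p.Prime] {U U₀ : Subgroup G} (hU₀ : U₀ ≤ U)
    (hUp : IsPGroup p U) (hUc : ∀ a ∈ U, ∀ b ∈ U, a * b = b * a)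
    (hcard : Nat.card U ≤ p * Nat.card U₀) (a : G) (haU : ∀ v ∈ U, a * v * a⁻¹ ∈ U)
    (ha₀ : ∀ v ∈ U₀, a * v * a⁻¹ = v) (hap : ∃ r : ℕ, a ^ (p ^ r) = 1) (w : G) (hw : w ∈ U) :
    w⁻¹ * (a * w * a⁻¹) ∈ U₀ ∧ (w⁻¹ * (a * w * a⁻¹)) ^ p = 1 := by
  classical
  have hp : p.Prime := Fact.out
  let φ : ↥U →* ↥U :=
    { toFun := fun v => ⟨(v : G)⁻¹ * (a * v * a⁻¹), U.mul_mem (U.inv_mem v.2) (haU v v.2)⟩
      map_one' := by
        apply Subtype.ext
        simp
      map_mul' := by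
        intro v v'
        apply Subtype.ext
        show ((v : G) * v')⁻¹ * (a * ((v : G) * v') * a⁻¹) =
          (v : G)⁻¹ * (a * v * a⁻¹) * ((v' : G)⁻¹ * (a * v' * a⁻¹))
        have h1 : a * ((v : G) * v') * a⁻¹ = (a * v * a⁻¹) * (a * v' * a⁻¹) := by group
        have hc := hUc _ (U.inv_mem v'.2) _ (U.mul_mem (U.inv_mem v.2) (haU v v.2))
        rw [h1, mul_inv_rev]
        calc (v' : G)⁻¹ * (v : G)⁻¹ * (a * v * a⁻¹ * (a * v' * a⁻¹))
            = ((v' : G)⁻¹ * ((v : G)⁻¹ * (a * v * a⁻¹))) * (a * v' * a⁻¹) := by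
              simp only [mul_assoc]
          _ = (((v : G)⁻¹ * (a * v * a⁻¹)) * (v' : G)⁻¹) * (a * v' * a⁻¹) := by rw [hc]
          _ = (v : G)⁻¹ * (a * v * a⁻¹) * ((v' : G)⁻¹ * (a * v' * a⁻¹)) := by
              simp only [mul_assoc] }
  have hφ : ∀ v : ↥U, ((φ v : ↥U) : G) = (v : G)⁻¹ * (a * v * a⁻¹) := fun v => rfl
  have hker : U₀.subgroupOf U ≤ φ.ker := by
    intro v hv
    rw [Subgroup.mem_subgroupOf] at hv
    rw [MonoidHom.mem_ker]
    apply Subtype.ext
    rw [hφ, ha₀ _ hv]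
    simp
  have hcard₀ : Nat.card (U₀.subgroupOf U) = Nat.card U₀ :=
    Nat.card_congr (Subgroup.subgroupOfEquivOfLe hU₀).toEquiv
  have hidx : Nat.card φ.ker * Nat.card φ.range = Nat.card U := by
    rw [← Subgroup.index_ker]
    exact φ.ker.card_mul_index
  have hU₀pos : 0 < Nat.card U₀ := Nat.card_pos
  have hkerge : Nat.card U₀ ≤ Nat.card φ.ker := by
    rw [← hcard₀]
    exact Subgroup.card_le_of_le hker
  have hrange_le : Nat.card φ.range ≤ p := by
    have h1 : Nat.card U₀ * Nat.card φ.range ≤ Nat.card U₀ * p := by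
      calc Nat.card U₀ * Nat.card φ.range ≤ Nat.card φ.ker * Nat.card φ.range :=
            Nat.mul_le_mul_right _ hkerge
        _ = Nat.card U := hidx
        _ ≤ p * Nat.card U₀ := hcard
        _ = Nat.card U₀ * p := mul_comm _ _
    exact Nat.le_of_mul_le_mul_left h1 hU₀pos
  obtain ⟨k, hk⟩ := (hUp.to_subgroup φ.range).exists_card_eq
  set e : G := w⁻¹ * (a * w * a⁻¹) with he
  have heU : e ∈ U := U.mul_mem (U.inv_mem hw) (haU w hw)
  have hemem : (⟨e, heU⟩ : ↥U) ∈ φ.range := ⟨⟨w, hw⟩, rfl⟩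
  have hk1 : k ≤ 1 := by
    by_contra hcon
    rw [not_le] at hcon
    have : p ^ 2 ≤ p ^ k := Nat.pow_le_pow_right hp.pos hcon
    rw [← hk] at this
    have h2 : p ^ 2 ≤ p := this.trans hrange_le
    have h3 : p * 2 ≤ p * p := Nat.mul_le_mul_left p hp.two_le
    nlinarith [hp.two_le]
  have hpe : e ^ p = 1 := by
    have h1 : (⟨⟨e, heU⟩, hemem⟩ : ↥φ.range) ^ Nat.card φ.range = 1 := pow_card_eq_one'
    have h2 : e ^ Nat.card φ.range = 1 := by
      have := congrArg (fun z : ↥φ.range => ((z : ↥U) : G)) h1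
      simpa using this
    rw [hk] at h2
    interval_cases k
    · rw [pow_zero, pow_one] at h2
      rw [h2, one_pow]
    · rwa [pow_one] at h2
  refine ⟨?_, hpe⟩
  by_cases he1 : e = 1
  · rw [he1]; exact U₀.one_mem
  -- `e` has order `p`, the range is cyclic of order `p`
  have hk' : k = 1 := by
    interval_cases k
    · exfalso
      rw [pow_zero] at hk
      have h1 : (⟨⟨e, heU⟩, hemem⟩ : ↥φ.range) = 1 := by
        haveI : Subsingleton ↥φ.range := (Nat.card_eq_one_iff_unique.mp hk).1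
        exact Subsingleton.elim _ _
      have := congrArg (fun z : ↥φ.range => ((z : ↥U) : G)) h1
      exact he1 (by simpa using this)
    · rfl
  rw [hk', pow_one] at hk
  have hord : orderOf e = p := by
    have h1 : orderOf e ∣ p := orderOf_dvd_of_pow_eq_one hpe
    rcases (Nat.dvd_prime hp).mp h1 with h2 | h2
    · exact absurd (orderOf_eq_one_iff.mp h2) he1
    · exact h2
  -- `a e a⁻¹` is a power of `e`
  have hconjmem : (⟨a * e * a⁻¹, haU e heU⟩ : ↥U) ∈ φ.range := by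
    refine ⟨⟨a * w * a⁻¹, haU w hw⟩, ?_⟩
    apply Subtype.ext
    rw [hφ]
    show (a * w * a⁻¹)⁻¹ * (a * (a * w * a⁻¹) * a⁻¹) = a * e * a⁻¹
    rw [he]
    group
  have hgen : Subgroup.zpowers (⟨⟨e, heU⟩, hemem⟩ : ↥φ.range) = ⊤ := by
    apply zpowers_eq_top_of_prime_card hk
    intro h1
    have := congrArg (fun z : ↥φ.range => ((z : ↥U) : G)) h1
    exact he1 (by simpa using this)
  obtain ⟨j, hj⟩ : ∃ j : ℕ, a * e * a⁻¹ = e ^ j := by
    have h1 : (⟨⟨a * e * a⁻¹, haU e heU⟩, hconjmem⟩ : ↥φ.range) ∈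
        Subgroup.zpowers (⟨⟨e, heU⟩, hemem⟩ : ↥φ.range) := by
      rw [hgen]; trivial
    obtain ⟨i, hi⟩ := Subgroup.mem_zpowers_iff.mp h1
    have h2 : e ^ i = a * e * a⁻¹ := by
      have := congrArg (fun z : ↥φ.range => ((z : ↥U) : G)) hi
      simpa using this
    refine ⟨(i % (orderOf e : ℤ)).toNat, ?_⟩
    rw [← h2, ← zpow_mod_orderOf, ← zpow_natCast]
    congr 1
    rw [Int.toNat_of_nonneg]
    apply Int.emod_nonneg
    rw [hord]
    exact_mod_cast hp.ne_zero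
  have hiter : ∀ n : ℕ, a ^ n * e * (a ^ n)⁻¹ = e ^ (j ^ n) := by
    intro n
    induction n with
    | zero => simp
    | succ n ih =>
      have h1 : a ^ (n + 1) * e * (a ^ (n + 1))⁻¹ = a * (a ^ n * e * (a ^ n)⁻¹) * a⁻¹ := by
        rw [pow_succ']
        group
      rw [h1, ih]
      have h2 : a * e ^ (j ^ n) * a⁻¹ = (a * e * a⁻¹) ^ (j ^ n) := by
        rw [conj_pow]
      rw [h2, hj, ← pow_mul, pow_succ, mul_comm]
  obtain ⟨r, hr⟩ := hap
  have h3 := hiter (p ^ r)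
  rw [hr] at h3
  simp only [one_mul, inv_one, mul_one] at h3
  have h4 : e ^ 1 = e ^ (j ^ (p ^ r)) := by rw [pow_one]; exact h3
  rw [pow_eq_pow_iff_modEq, hord] at h4
  have h5 : ((j : ZMod p)) = 1 := by
    have h6 := (ZMod.natCast_eq_natCast_iff _ _ _).mpr h4
    rw [Nat.cast_one, Nat.cast_pow, ZMod.pow_card_pow] at h6
    exact h6.symm
  have h7 : j ≡ 1 [MOD p] := by
    rw [← ZMod.natCast_eq_natCast_iff, h5, Nat.cast_one]
  have h8 : e ^ j = e ^ 1 := by
    rw [pow_eq_pow_iff_modEq, hord]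
    exact h7
  rw [pow_one] at h8
  rw [h8] at hj
  -- so `e` lies in the kernel, which is `U₀`
  have hekermem : (⟨e, heU⟩ : ↥U) ∈ φ.ker := by
    rw [MonoidHom.mem_ker]
    apply Subtype.ext
    rw [hφ]
    show e⁻¹ * (a * e * a⁻¹) = 1
    rw [hj]
    simp
  have hkereq : U₀.subgroupOf U = φ.ker := by
    apply Subgroup.eq_of_le_of_card_ge hker
    rw [hcard₀]
    rw [hk] at hidx
    have h9 : Nat.card φ.ker * p ≤ Nat.card U₀ * p := by
      rw [hidx, mul_comm]
      exact hcard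
    exact Nat.le_of_mul_le_mul_right h9 hp.pos
  rw [← hkereq, Subgroup.mem_subgroupOf] at hekermem
  exact hekermem

/-- conjugates `a^i w a^-i` under quadratic action. -/
theorem conj_pow_eq {a w e : G} (he : a * w * a⁻¹ = w * e) (hae : a * e * a⁻¹ = e) (i : ℕ) :
    a ^ i * w * (a ^ i)⁻¹ = w * e ^ i := by
  induction i with
  | zero => simp
  | succ i ih =>
    have h1 : a ^ (i + 1) * w * (a ^ (i + 1))⁻¹ = a * (a ^ i * w * (a ^ i)⁻¹) * a⁻¹ := by
      rw [pow_succ']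
      group
    rw [h1, ih]
    have h2 : a * (w * e ^ i) * a⁻¹ = (a * w * a⁻¹) * (a * e * a⁻¹) ^ i := by
      rw [conj_pow]
      group
    rw [h2, he, hae, mul_assoc, ← pow_succ']

theorem list_prod_quad {a w e : G} (he : a * w * a⁻¹ = w * e) (hae : a * e * a⁻¹ = e)
    (hwe : w * e = e * w) (n : ℕ) :
    ((List.range n).map (fun i => a ^ i * w * (a ^ i)⁻¹)).prod =
      w ^ n * e ^ (∑ i ∈ Finset.range n, i) := by
  induction n with
  | zero => simp
  | succ n ih =>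
    rw [List.range_succ, List.map_append, List.prod_append, ih, Finset.sum_range_succ]
    simp only [List.map_cons, List.map_nil, List.prod_cons, List.prod_nil, mul_one]
    rw [conj_pow_eq he hae n]
    have hc : Commute w e := hwe
    have h1 : Commute (e ^ (∑ i ∈ Finset.range n, i)) w := (hc.pow_right _).symm
    calc w ^ n * e ^ (∑ i ∈ Finset.range n, i) * (w * e ^ n)
        = w ^ n * (e ^ (∑ i ∈ Finset.range n, i) * w) * e ^ n := by simp only [mul_assoc]
      _ = w ^ n * (w * e ^ (∑ i ∈ Finset.range n, i)) * e ^ n := by rw [h1.eq]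
      _ = w ^ (n + 1) * e ^ (∑ i ∈ Finset.range n, i + n) := by
          rw [pow_succ, pow_add]
          simp only [mul_assoc]

/-- the norm identity for odd `p`. -/
theorem list_prod_quad_odd {p : ℕ} [Fact p.Prime] (hp2 : p ≠ 2) {a w e : G}
    (he : a * w * a⁻¹ = w * e) (hae : a * e * a⁻¹ = e) (hwe : w * e = e * w) (hep : e ^ p = 1) :
    ((List.range p).map (fun i => a ^ i * w * (a ^ i)⁻¹)).prod = w ^ p := by
  have hp : p.Prime := Fact.out
  rw [list_prod_quad he hae hwe]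
  have h1 : p ∣ ∑ i ∈ Finset.range p, i := by
    have h2 := Finset.sum_range_id_mul_two p
    have h3 : p ∣ (∑ i ∈ Finset.range p, i) * 2 := by
      rw [h2]
      exact Dvd.intro _ rfl
    have hcop : Nat.Coprime p 2 := by
      rw [Nat.coprime_primes hp Nat.prime_two]
      exact hp2
    exact hcop.dvd_of_dvd_mul_right h3
  obtain ⟨c, hc⟩ := h1
  rw [hc, pow_mul, hep, one_pow, mul_one]

/-- the unique fixed point lemma for a weakly closed subgroup whose normalizer centralizes `x`. -/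
theorem unique_fixed [Finite G] {p : ℕ} [Fact p.Prime] {H S K : Subgroup G}
    (hS : IsSylIn p H S) (hKS : K ≤ S) (x : G) (hxS : ∀ s ∈ S, s * x = x * s)
    (hwc : ∀ h ∈ H, cj h K ≤ S → cj h K = K)
    (hnc : ∀ n ∈ H, n ∈ Subgroup.normalizer (K : Set G) → n * x = x * n)
    (h : G) (hh : h ∈ H) (hfix : ∀ k ∈ K, k * (h * x * h⁻¹) = (h * x * h⁻¹) * k) :
    h * x * h⁻¹ = x := by
  set M : Subgroup G := H ⊓ Subgroup.centralizer ({x} : Set G) with hM
  have hSM : S ≤ M := by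
    intro s hs
    rw [hM, Subgroup.mem_inf]
    refine ⟨hS.1 hs, ?_⟩
    rw [Subgroup.mem_centralizer_iff]
    intro y hy
    rw [Set.mem_singleton_iff] at hy
    rw [hy]
    exact (hxS s hs).symm
  have hSylM : IsSylIn p M S := hS.of_le hSM inf_le_left
  have hK'M : cj h⁻¹ K ≤ M := by
    intro z hz
    rw [mem_cj, inv_inv] at hz
    have hzH : z ∈ H := by
      have := H.mul_mem (H.mul_mem (H.inv_mem hh) (hS.1 (hKS hz))) hh
      simpa [mul_assoc] using this
    rw [hM, Subgroup.mem_inf]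
    refine ⟨hzH, ?_⟩
    rw [Subgroup.mem_centralizer_iff]
    intro y hy
    rw [Set.mem_singleton_iff] at hy
    rw [hy]
    have h1 := hfix _ hz
    -- (h z h⁻¹)(h x h⁻¹) = (h x h⁻¹)(h z h⁻¹)
    have h2 : h * (z * x) * h⁻¹ = h * (x * z) * h⁻¹ := by
      have e1 : h * (z * x) * h⁻¹ = h * z * h⁻¹ * (h * x * h⁻¹) := by group
      have e2 : h * (x * z) * h⁻¹ = h * x * h⁻¹ * (h * z * h⁻¹) := by group
      rw [e1, e2]
      exact h1
    have h3 := mul_left_cancel (mul_right_cancel h2)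
    exact h3.symm
  have hK'p : IsPGroup p (cj h⁻¹ K) := (hS.isPGroup.to_le hKS).map _
  obtain ⟨E, hE, hK'E⟩ := exists_isSylIn_ge hK'M hK'p
  obtain ⟨m, hm, hEm⟩ := hSylM.exists_conj hE
  have hle : cj (m⁻¹ * h⁻¹) K ≤ S := by
    intro z hz
    rw [mem_cj] at hz
    have h1 : m * z * m⁻¹ ∈ cj h⁻¹ K := by
      rw [mem_cj, inv_inv]
      have e : h * (m * z * m⁻¹) * h⁻¹ = (m⁻¹ * h⁻¹)⁻¹ * z * (m⁻¹ * h⁻¹) := by group
      rw [e]
      exact hz
    have h2 := hK'E h1
    rw [hEm, mem_cj] at h2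
    have e : m⁻¹ * (m * z * m⁻¹) * m = z := by group
    rwa [e] at h2
  have hmH : m⁻¹ * h⁻¹ ∈ H := H.mul_mem (H.inv_mem hm.1) (H.inv_mem hh)
  have heq := hwc _ hmH hle
  have hnorm : m⁻¹ * h⁻¹ ∈ Subgroup.normalizer (K : Set G) := by
    rw [Subgroup.mem_normalizer_iff_map_conj_eq]
    exact heq
  have hcomm := hnc _ hmH hnorm
  have hmx : m * x = x * m := by
    have := Subgroup.mem_centralizer_iff.mp hm.2 x (Set.mem_singleton x)
    exact this.symm
  -- m⁻¹ h⁻¹ x = x m⁻¹ h⁻¹ and m x = x m give h x h⁻¹ = x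
  have h1 : h⁻¹ * x = x * h⁻¹ := by
    have e1 : h⁻¹ * x = m * (m⁻¹ * h⁻¹ * x) := by group
    rw [e1, hcomm]
    have e2 : m * (x * (m⁻¹ * h⁻¹)) = (m * x) * m⁻¹ * h⁻¹ := by group
    rw [e2, hmx]
    group
  calc h * x * h⁻¹ = h * (x * h⁻¹) := by group
    _ = h * (h⁻¹ * x) := by rw [h1]
    _ = x := by group

end Cfsg.Agent.H52.Wc
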