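import Mathlib
import Cfsg.Agent.H52.WcA
import Cfsg.Agent.H14.Basic

/-!
# Glauberman's weak closure theorem (S2799): the minimal counterexample, part 1 (helper52)
-/

set_option autoImplicit false
set_option linter.unusedSectionVars false
set_option linter.unusedVariables false

namespace Cfsg.Agent.H52.Wc

open Cfsg Cfsg.Agent.Helper55 Cfsg.Agent.H29

variable {G : Type*} [Group G]

/-- the `H`-conjugates of `x`. -/
def Om (H : Subgroup G) (x : G) : Set G := {u | ∃ h ∈ H, u = h * x * h⁻¹}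

/-- the subgroup generated by the `H`-conjugates of `x`. -/
def Vx (H : Subgroup G) (x : G) : Subgroup G := Subgroup.closure (Om H x)

/-- A minimal counterexample to the local theorem. -/
structure MC (p : ℕ) (H S D : Subgroup G) (x : G) : Prop where
  hS : IsSylIn p H S
  hDH : D ≤ H
  hDp : IsPGroup p D
  hDn : ∀ h ∈ H, ∀ d ∈ D, h * d * h⁻¹ ∈ D
  hxD : x ∈ D
  hxJ : ∀ n ∈ H, n ∈ Subgroup.normalizer ((nJ 0 S : Subgroup G) : Set G) → n * x = x * n
  hyp : p ≠ 2 ∨ (∃ z ∈ S, (∀ s ∈ S, z * s = s * z) ∧ z ^ p = x) ∨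
    ¬ Involves (Equiv.Perm (Fin 4)) G
  hpow : ∀ h ∈ H, h * x ^ p = x ^ p * h
  hmax : ∀ H' : Subgroup G, H' ≤ H → H' ≠ H → nJ 0 S ≤ H' → ∀ h ∈ H', h * x = x * h
  hnot : ¬ ∀ h ∈ H, h * x = x * h

theorem mem_normalizer_of_conj [Finite G] {h : G} {X : Subgroup G}
    (hX : ∀ z ∈ X, h * z * h⁻¹ ∈ X) : h ∈ Subgroup.normalizer (X : Set G) := by
  rw [Subgroup.mem_normalizer_iff_map_conj_eq]
  exact cj_eq_of_normalizes hX

theorem conj_mem_of_mem_normalizer {h : G} {X : Subgroup G}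
    (hh : h ∈ Subgroup.normalizer (X : Set G)) {z : G} (hz : z ∈ X) : h * z * h⁻¹ ∈ X :=
  (Subgroup.mem_normalizer_iff.mp hh z).mp hz

namespace MC

variable [Finite G] {p : ℕ} [Fact p.Prime] {H S D : Subgroup G} {x : G}

theorem D_le_S (h : MC p H S D x) : D ≤ S := by
  have h1 : S ≤ Subgroup.normalizer (D : Set G) := fun s hs =>
    mem_normalizer_of_conj (fun d hd => h.hDn s (h.hS.1 hs) d hd)
  have h2 : IsPGroup p ↥(S ⊔ D) := h.hS.isPGroup.to_sup_of_normal_right' h.hDp h1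
  have h3 : S = S ⊔ D := h.hS.eq_of_le le_sup_left (sup_le h.hS.1 h.hDH) h2
  rw [h3]
  exact le_sup_right

theorem xS (h : MC p H S D x) : x ∈ S := h.D_le_S h.hxD

theorem x_central (h : MC p H S D x) : ∀ s ∈ S, s * x = x * s := fun s hs =>
  h.hxJ s (h.hS.1 hs) (normalizer_le_normalizer_nJ 0 S (Subgroup.le_normalizer hs))

theorem x_mem_Om (H : Subgroup G) (x : G) : x ∈ Om H x := ⟨1, H.one_mem, by simp⟩

theorem Om_conj {H : Subgroup G} {x u g : G} (hg : g ∈ H) (hu : u ∈ Om H x) :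
    g * u * g⁻¹ ∈ Om H x := by
  obtain ⟨k, hk, rfl⟩ := hu
  exact ⟨g * k, H.mul_mem hg hk, by group⟩

theorem Om_sub_D (h : MC p H S D x) {u : G} (hu : u ∈ Om H x) : u ∈ D := by
  obtain ⟨k, hk, rfl⟩ := hu
  exact h.hDn k hk x h.hxD

theorem Om_comm_D (h : MC p H S D x) {u : G} (hu : u ∈ Om H x) {d : G} (hd : d ∈ D) :
    u * d = d * u := by
  obtain ⟨k, hk, rfl⟩ := hu
  have h1 : k⁻¹ * d * k ∈ D := by
    have := h.hDn k⁻¹ (H.inv_mem hk) d hd
    simpa using this
  have h2 := h.x_central _ (h.D_le_S h1)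
  calc k * x * k⁻¹ * d = k * (x * (k⁻¹ * d * k)) * k⁻¹ := by group
    _ = k * ((k⁻¹ * d * k) * x) * k⁻¹ := by rw [h2]
    _ = d * (k * x * k⁻¹) := by group

theorem V_le_D (h : MC p H S D x) : Vx H x ≤ D := by
  unfold Vx
  rw [Subgroup.closure_le]
  intro u hu
  exact h.Om_sub_D hu

theorem V_le_S (h : MC p H S D x) : Vx H x ≤ S := h.V_le_D.trans h.D_le_S

theorem V_le_H (h : MC p H S D x) : Vx H x ≤ H := h.V_le_D.trans h.hDH

theorem V_comm_D (h : MC p H S D x) {v : G} (hv : v ∈ Vx H x) {d : G} (hd : d ∈ D) :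
    v * d = d * v := by
  have h1 : Vx H x ≤ Subgroup.centralizer ({d} : Set G) := by
    unfold Vx
    rw [Subgroup.closure_le]
    intro u hu
    rw [SetLike.mem_coe, Subgroup.mem_centralizer_iff]
    intro y hy
    rw [Set.mem_singleton_iff] at hy
    rw [hy]
    exact (h.Om_comm_D hu hd).symm
  have h2 := Subgroup.mem_centralizer_iff.mp (h1 hv) d (Set.mem_singleton d)
  exact h2.symm

theorem V_comm (h : MC p H S D x) : ∀ a ∈ Vx H x, ∀ b ∈ Vx H x, a * b = b * a :=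
  fun _ ha _ hb => h.V_comm_D ha (h.V_le_D hb)

theorem V_norm {H : Subgroup G} {x g : G} (hg : g ∈ H) :
    ∀ v ∈ Vx H x, g * v * g⁻¹ ∈ Vx H x := by
  intro v hv
  unfold Vx at hv ⊢
  induction hv using Subgroup.closure_induction with
  | mem u hu => exact Subgroup.subset_closure (Om_conj hg hu)
  | one => simp
  | mul a b _ _ ha hb =>
    have e : g * (a * b) * g⁻¹ = (g * a * g⁻¹) * (g * b * g⁻¹) := by group
    rw [e]
    exact Subgroup.mul_mem _ ha hb
  | inv a _ ha =>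
    have e : g * a⁻¹ * g⁻¹ = (g * a * g⁻¹)⁻¹ := by group
    rw [e]
    exact Subgroup.inv_mem _ ha

theorem xV (H : Subgroup G) (x : G) : x ∈ Vx H x := Subgroup.subset_closure (x_mem_Om H x)

/-- an element commuting with all conjugates of `x` centralizes `V`. -/
theorem cent_V_of_fix {H : Subgroup G} {x k : G} (hk : ∀ u ∈ Om H x, k * u = u * k) :
    ∀ v ∈ Vx H x, k * v = v * k := by
  intro v hv
  have h1 : Vx H x ≤ Subgroup.centralizer ({k} : Set G) := by
    unfold Vx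
    rw [Subgroup.closure_le]
    intro u hu
    rw [SetLike.mem_coe, Subgroup.mem_centralizer_iff]
    intro y hy
    rw [Set.mem_singleton_iff] at hy
    rw [hy]
    exact hk u hu
  exact Subgroup.mem_centralizer_iff.mp (h1 hv) k (Set.mem_singleton k)

theorem V_le_of_cent (h : MC p H S D x) {A : Subgroup G} (hA : A ∈ nMax 0 S)
    (hc : ∀ v ∈ Vx H x, ∀ a ∈ A, v * a = a * v) : Vx H x ≤ A :=
  le_of_centralizes hA h.V_le_S h.V_comm hc

/-- weak closure of subgroups generated by a conjugation-stable part of `𝒜(S)`. -/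
theorem wc_sSup {S : Subgroup G} (P : Subgroup G → Prop) (g : G)
    (hP : ∀ A, A ∈ nMax 0 S → P A → P (cj g A))
    (hle : cj g (sSup {A | A ∈ nMax 0 S ∧ P A}) ≤ S) :
    cj g (sSup {A | A ∈ nMax 0 S ∧ P A}) = sSup {A | A ∈ nMax 0 S ∧ P A} := by
  apply Subgroup.eq_of_le_of_card_ge
  · show Subgroup.map _ _ ≤ _
    rw [Subgroup.map_le_iff_le_comap]
    apply sSup_le
    intro A hA
    rw [← Subgroup.map_le_iff_le_comap]
    apply le_sSup
    have h1 : cj g A ≤ S := (Subgroup.map_mono (le_sSup hA)).trans hle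
    haveI := hA.1.1.2.1
    have h2 : cj g A ∈ nAb 0 S := ⟨h1, Subgroup.map_isMulCommutative _ _, fun _ _ => pow_zero _⟩
    exact ⟨mem_nMax_of_card_eq hA.1 h2 (card_map_conj A g), hP A hA.1 hA.2⟩
  · exact le_of_eq (card_map_conj _ g).symm

theorem nJ_eq_sSup (S : Subgroup G) : nJ 0 S = sSup {A | A ∈ nMax 0 S ∧ True} := by
  unfold nJ
  congr 1
  ext A
  simp

theorem wc_J (h : MC p H S D x) : ∀ g ∈ H, cj g (nJ 0 S) ≤ S → cj g (nJ 0 S) = nJ 0 S := by
  intro g _ hle
  rw [nJ_eq_sSup] at hle ⊢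
  exact wc_sSup (fun _ => True) g (fun _ _ _ => trivial) hle

/-- (iii): some member of `𝒜(S)` does not contain `V`. -/
theorem exists_not_le (h : MC p H S D x) : ∃ A, A ∈ nMax 0 S ∧ ¬ Vx H x ≤ A := by
  by_contra hcon
  have hall : ∀ A, A ∈ nMax 0 S → Vx H x ≤ A := by
    intro A hA
    by_contra h1
    exact hcon ⟨A, hA, h1⟩
  apply h.hnot
  intro g hg
  have h1 : nJ 0 S ≤ Subgroup.centralizer ((Vx H x : Subgroup G) : Set G) := by
    apply sSup_le
    intro A hA a ha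
    rw [Subgroup.mem_centralizer_iff]
    intro v hv
    exact comm_of_mem_nMax hA v (hall A hA hv) a ha
  have h2 : g * x * g⁻¹ = x := by
    apply unique_fixed h.hS (nJ_le 0 S) x h.x_central h.wc_J h.hxJ g hg
    intro k hk
    have hu : g * x * g⁻¹ ∈ Vx H x := Subgroup.subset_closure ⟨g, hg, rfl⟩
    exact (Subgroup.mem_centralizer_iff.mp (h1 hk) _ hu).symm
  calc g * x = g * x * g⁻¹ * g := by group
    _ = x * g := by rw [h2]

end MC

end Cfsg.Agent.H52.Wc
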