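import Mathlib
import Cfsg.Agent.H52.WcB

/-!
# Glauberman's weak closure theorem (S2799): the minimal counterexample, part 2 (helper52)

The refined Thompson subgroup `J'` and its unique fixed point.
-/

set_option autoImplicit false
set_option linter.unusedSectionVars false
set_option linter.unusedVariables false

namespace Cfsg.Agent.H52.Wc

open Cfsg Cfsg.Agent.Helper55 Cfsg.Agent.H29

variable {G : Type*} [Group G]

/-- the refined Thompson subgroup: generated by the members of `𝒜(S)` containing `V` or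
meeting `V` in a subgroup of order `m`. -/
def Jp (S V : Subgroup G) (m : ℕ) : Subgroup G :=
  sSup {A | A ∈ nMax 0 S ∧ (V ≤ A ∨ Nat.card ↥(A ⊓ V) = m)}

/-- minimal counterexample together with the extremal member `A₀` of `𝒜(S)`. -/
structure MD (p : ℕ) (H S D : Subgroup G) (x : G) (m : ℕ) (A₀ : Subgroup G) : Prop where
  mc : MC p H S D x
  hA₀ : A₀ ∈ nMax 0 S
  hA₀V : ¬ Vx H x ≤ A₀
  hA₀m : Nat.card ↥(A₀ ⊓ Vx H x) = m
  hm : ∀ A, A ∈ nMax 0 S → ¬ Vx H x ≤ A → Nat.card ↥(A ⊓ Vx H x) ≤ m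

theorem MC.exists_MD [Finite G] {p : ℕ} [Fact p.Prime] {H S D : Subgroup G} {x : G}
    (h : MC p H S D x) : ∃ m A₀, MD p H S D x m A₀ := by
  obtain ⟨A, hA, hAV⟩ := h.exists_not_le
  haveI : Nonempty {A : Subgroup G // A ∈ nMax 0 S ∧ ¬ Vx H x ≤ A} := ⟨⟨A, hA, hAV⟩⟩
  obtain ⟨A₀, hmax⟩ := Finite.exists_max
    (fun A : {A : Subgroup G // A ∈ nMax 0 S ∧ ¬ Vx H x ≤ A} =>
      Nat.card ↥((A : Subgroup G) ⊓ Vx H x))
  exact ⟨_, A₀.1, h, A₀.2.1, A₀.2.2, rfl, fun B hB hBV => hmax ⟨B, hB, hBV⟩⟩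

namespace MD

variable [Finite G] {p : ℕ} [Fact p.Prime] {H S D : Subgroup G} {x : G} {m : ℕ}
  {A₀ : Subgroup G}

theorem Jp_le_S (h : MD p H S D x m A₀) : Jp S (Vx H x) m ≤ S :=
  sSup_le (fun _ hA => hA.1.1.1)

theorem Jp_le_H (h : MD p H S D x m A₀) : Jp S (Vx H x) m ≤ H := h.Jp_le_S.trans h.mc.hS.1

theorem le_Jp (h : MD p H S D x m A₀) {A : Subgroup G} (hA : A ∈ nMax 0 S)
    (hP : Vx H x ≤ A ∨ Nat.card ↥(A ⊓ Vx H x) = m) : A ≤ Jp S (Vx H x) m :=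
  le_sSup ⟨hA, hP⟩

theorem A₀_le (h : MD p H S D x m A₀) : A₀ ≤ Jp S (Vx H x) m := h.le_Jp h.hA₀ (Or.inr h.hA₀m)

theorem cj_V (h : MD p H S D x m A₀) {g : G} (hg : g ∈ H) : cj g (Vx H x) = Vx H x :=
  cj_eq_of_normalizes (MC.V_norm hg)

theorem P_conj (h : MD p H S D x m A₀) {g : G} (hg : g ∈ H) (A : Subgroup G)
    (hP : Vx H x ≤ A ∨ Nat.card ↥(A ⊓ Vx H x) = m) :
    Vx H x ≤ cj g A ∨ Nat.card ↥(cj g A ⊓ Vx H x) = m := by
  rcases hP with hP | hP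
  · left
    have h1 : cj g (Vx H x) ≤ cj g A := Subgroup.map_mono hP
    rwa [h.cj_V hg] at h1
  · right
    have h1 : cj g A ⊓ Vx H x = cj g (A ⊓ Vx H x) := by
      have h2 := Subgroup.map_inf_eq A (Vx H x) (MulAut.conj g).toMonoidHom (MulAut.conj g).injective
      have h3 : cj g (Vx H x) = Vx H x := h.cj_V hg
      show Subgroup.map _ A ⊓ Vx H x = Subgroup.map _ (A ⊓ Vx H x)
      rw [h2]
      show _ = Subgroup.map _ A ⊓ cj g (Vx H x)
      rw [h3]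
    rw [h1, card_map_conj]
    exact hP

theorem wc_Jp (h : MD p H S D x m A₀) :
    ∀ g ∈ H, cj g (Jp S (Vx H x) m) ≤ S → cj g (Jp S (Vx H x) m) = Jp S (Vx H x) m := by
  intro g hg hle
  exact MC.wc_sSup (fun A => Vx H x ≤ A ∨ Nat.card ↥(A ⊓ Vx H x) = m) g
    (fun A _ hP => h.P_conj hg A hP) hle

theorem S_norm_Jp (h : MD p H S D x m A₀) {s : G} (hs : s ∈ S) :
    cj s (Jp S (Vx H x) m) = Jp S (Vx H x) m := by
  apply h.wc_Jp s (h.mc.hS.1 hs)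
  have h1 : cj s (Jp S (Vx H x) m) ≤ cj s S := Subgroup.map_mono h.Jp_le_S
  have h2 : cj s S = S := map_conj_of_mem hs
  rwa [h2] at h1

theorem Jp_fix_x (h : MD p H S D x m A₀) : ∀ k ∈ Jp S (Vx H x) m, k * x = x * k :=
  fun k hk => h.mc.x_central k (h.Jp_le_S hk)

theorem Jp_not_normal (h : MD p H S D x m A₀) :
    ¬ ∀ g ∈ H, cj g (Jp S (Vx H x) m) = Jp S (Vx H x) m := by
  intro hn
  apply h.hA₀V
  apply h.mc.V_le_of_cent h.hA₀
  intro v hv a ha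
  have h1 : ∀ u ∈ Om H x, a * u = u * a := by
    rintro _ ⟨g, hg, rfl⟩
    have h2 : g⁻¹ * a * g ∈ Jp S (Vx H x) m := by
      have h3 := conj_mem_cj (h := g⁻¹) (h.A₀_le ha)
      rw [hn g⁻¹ (H.inv_mem hg), inv_inv] at h3
      exact h3
    have h4 := h.Jp_fix_x _ h2
    calc a * (g * x * g⁻¹) = g * ((g⁻¹ * a * g) * x) * g⁻¹ := by group
      _ = g * (x * (g⁻¹ * a * g)) * g⁻¹ := by rw [h4]
      _ = g * x * g⁻¹ * a := by group
  exact (MC.cent_V_of_fix h1 v hv).symm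

theorem norm_Jp_cent (h : MD p H S D x m A₀) :
    ∀ n ∈ H, n ∈ Subgroup.normalizer ((Jp S (Vx H x) m : Subgroup G) : Set G) →
      n * x = x * n := by
  intro n hn hnn
  have hne : H ⊓ Subgroup.normalizer ((Jp S (Vx H x) m : Subgroup G) : Set G) ≠ H := by
    intro heq
    apply h.Jp_not_normal
    intro g hg
    have h1 : g ∈ H ⊓ Subgroup.normalizer ((Jp S (Vx H x) m : Subgroup G) : Set G) := by
      rw [heq]; exact hg
    exact map_conj_of_mem_normalizer (Subgroup.mem_inf.mp h1).2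
  have hJ : nJ 0 S ≤ H ⊓ Subgroup.normalizer ((Jp S (Vx H x) m : Subgroup G) : Set G) := by
    intro j hj
    have hjS : j ∈ S := nJ_le 0 S hj
    rw [Subgroup.mem_inf]
    refine ⟨h.mc.hS.1 hjS, ?_⟩
    rw [Subgroup.mem_normalizer_iff_map_conj_eq]
    exact h.S_norm_Jp hjS
  exact h.mc.hmax _ inf_le_left hne hJ n (Subgroup.mem_inf.mpr ⟨hn, hnn⟩)

/-- `x` is the unique fixed point of `J'` among its `H`-conjugates. -/
theorem ufp (h : MD p H S D x m A₀) (g : G) (hg : g ∈ H)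
    (hfix : ∀ k ∈ Jp S (Vx H x) m, k * (g * x * g⁻¹) = (g * x * g⁻¹) * k) :
    g * x * g⁻¹ = x :=
  unique_fixed h.mc.hS h.Jp_le_S x h.mc.x_central h.wc_Jp h.norm_Jp_cent g hg hfix

theorem Jp_isPGroup (h : MD p H S D x m A₀) : IsPGroup p (Jp S (Vx H x) m) :=
  h.mc.hS.isPGroup.to_le h.Jp_le_S

end MD

end Cfsg.Agent.H52.Wc
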