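import Mathlib
import Cfsg.Agent.H52.WcC

/-!
# Glauberman's weak closure theorem (S2799): the minimal counterexample, part 3 (helper52)

The two `p = 2` ingredients: roots of conjugates of `x` (case `x ∈ Z(S)²`) and
`O₂(H/C_H(V)) = 1`.
-/

set_option autoImplicit false
set_option linter.unusedSectionVars false
set_option linter.unusedVariables false

namespace Cfsg.Agent.H52.Wc

open Cfsg Cfsg.Agent.Helper55 Cfsg.Agent.H29

variable {G : Type*} [Group G]

theorem comm_zpowers (y : G) :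
    ∀ a ∈ Subgroup.zpowers y, ∀ b ∈ Subgroup.zpowers y, a * b = b * a := by
  intro a ha b hb
  obtain ⟨i, rfl⟩ := Subgroup.mem_zpowers_iff.mp ha
  obtain ⟨j, rfl⟩ := Subgroup.mem_zpowers_iff.mp hb
  rw [← zpow_add, ← zpow_add, add_comm]

/-- if `A₁ ≤ B` with `|B| ≤ 2|A₁|` then squares of elements of `B` lie in `A₁`. -/
theorem sq_mem_of_card_le [Finite G] {A₁ B : Subgroup G} (hAB : A₁ ≤ B)
    (hcard : Nat.card B ≤ 2 * Nat.card A₁) {y : G} (hy : y ∈ B) : y ^ 2 ∈ A₁ := by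
  have h1 := (A₁.subgroupOf B).card_mul_index
  have h2 : Nat.card (A₁.subgroupOf B) = Nat.card A₁ :=
    Nat.card_congr (Subgroup.subgroupOfEquivOfLe hAB).toEquiv
  rw [h2] at h1
  have hpos : 0 < Nat.card A₁ := Nat.card_pos
  have h3 : (A₁.subgroupOf B).index ≤ 2 := by
    have : Nat.card A₁ * (A₁.subgroupOf B).index ≤ Nat.card A₁ * 2 := by
      rw [h1, mul_comm]; exact hcard
    exact Nat.le_of_mul_le_mul_left this hpos
  have h4 : (A₁.subgroupOf B).index ≠ 0 := Subgroup.index_ne_zero_of_finite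
  have h5 : (A₁.subgroupOf B).index = 1 ∨ (A₁.subgroupOf B).index = 2 := by omega
  rcases h5 with h5 | h5
  · rw [Subgroup.index_eq_one] at h5
    have h6 : (⟨y, hy⟩ : ↥B) ∈ A₁.subgroupOf B := by rw [h5]; trivial
    rw [Subgroup.mem_subgroupOf] at h6
    exact A₁.pow_mem h6 2
  · have h6 := Subgroup.sq_mem_of_index_two h5 (⟨y, hy⟩ : ↥B)
    rw [Subgroup.mem_subgroupOf] at h6
    exact h6

namespace MC

variable [Finite G] {H S D : Subgroup G} {x : G}

/-- case `x ∈ Z(S)²`: a conjugate of `x` centralized by a subgroup `A₁` of index at most `2`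
in a member of `𝒜(S)` lies in `A₁`. -/
theorem root_mem [Fact (Nat.Prime 2)] (h : MC 2 H S D x) {A A₁ : Subgroup G}
    (hA : A ∈ nMax 0 S) (hA₁ : A₁ ≤ A) (hcard : Nat.card A ≤ 2 * Nat.card A₁)
    {z : G} (hzS : z ∈ S) (hzc : ∀ s ∈ S, z * s = s * z) (hz : z ^ 2 = x) {g : G} (hg : g ∈ H)
    (hcent : ∀ b ∈ A₁, b * (g * x * g⁻¹) = (g * x * g⁻¹) * b) : g * x * g⁻¹ ∈ A₁ := by
  set u : G := g * x * g⁻¹ with hu
  have hP : IsSylIn 2 H (cj g S) := h.hS.map_conj hg
  set M : Subgroup G := H ⊓ Subgroup.centralizer ({u} : Set G) with hM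
  have hmemM : ∀ t : G, t ∈ M ↔ t ∈ H ∧ t * u = u * t := by
    intro t
    rw [hM, Subgroup.mem_inf, Subgroup.mem_centralizer_iff]
    constructor
    · rintro ⟨h1, h2⟩
      exact ⟨h1, (h2 u (Set.mem_singleton u)).symm⟩
    · rintro ⟨h1, h2⟩
      refine ⟨h1, ?_⟩
      intro y hy
      rw [Set.mem_singleton_iff] at hy
      rw [hy]; exact h2.symm
  have hPM : cj g S ≤ M := by
    intro t ht
    rw [hmemM]
    refine ⟨hP.1 ht, ?_⟩
    rw [mem_cj] at ht
    have h1 := h.x_central _ ht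
    calc t * u = g * ((g⁻¹ * t * g) * x) * g⁻¹ := by rw [hu]; group
      _ = g * (x * (g⁻¹ * t * g)) * g⁻¹ := by rw [h1]
      _ = u * t := by rw [hu]; group
  have hSylM : IsSylIn 2 M (cj g S) := hP.of_le hPM inf_le_left
  have hA₁S : A₁ ≤ S := hA₁.trans hA.1.1
  have hA₁M : A₁ ≤ M := by
    intro b hb
    rw [hmemM]
    exact ⟨h.hS.1 (hA₁S hb), hcent b hb⟩
  have hA₁p : IsPGroup 2 A₁ := h.hS.isPGroup.to_le hA₁S
  obtain ⟨E, hE, hA₁E⟩ := exists_isSylIn_ge hA₁M hA₁p
  obtain ⟨c, hc, hEc⟩ := hSylM.exists_conj hE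
  have hEk : E = cj (c * g) S := by
    rw [hEc]
    exact map_conj_map_conj S c g
  set k : G := c * g with hk
  set y₁ : G := k * z * k⁻¹ with hy₁
  have hcu : c * u = u * c := ((hmemM c).mp hc).2
  have hy₁sq : y₁ ^ 2 = u := by
    have h1 : y₁ ^ 2 = k * z ^ 2 * k⁻¹ := by
      rw [hy₁, conj_pow]
    rw [h1, hz, hk]
    calc c * g * x * (c * g)⁻¹ = c * u * c⁻¹ := by rw [hu]; group
      _ = u * c * c⁻¹ := by rw [hcu]
      _ = u := by group
  have hy₁E : y₁ ∈ E := by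
    rw [hEk]
    exact conj_mem_cj hzS
  have hy₁c : ∀ t ∈ E, y₁ * t = t * y₁ := by
    intro t ht
    rw [hEk, mem_cj] at ht
    have h1 := hzc _ ht
    calc y₁ * t = k * (z * (k⁻¹ * t * k)) * k⁻¹ := by rw [hy₁]; group
      _ = k * ((k⁻¹ * t * k) * z) * k⁻¹ := by rw [h1]
      _ = t * y₁ := by rw [hy₁]; group
  -- the abelian subgroup `B`
  set B : Subgroup G := Subgroup.zpowers y₁ ⊔ A₁ with hB
  have hBE : B ≤ E := sup_le (by rw [Subgroup.zpowers_le]; exact hy₁E) hA₁E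
  have hA₁comm : ∀ a ∈ A₁, ∀ b ∈ A₁, a * b = b * a := fun a ha b hb =>
    comm_of_mem_nMax hA a (hA₁ ha) b (hA₁ hb)
  have hBc : IsMulCommutative B := by
    apply Cfsg.Agent.H14.sup_isMulCommutative _ _ (isMulCommutative_of_comm (comm_zpowers y₁))
      (isMulCommutative_of_comm hA₁comm)
    intro b hb
    rw [Subgroup.mem_centralizer_iff]
    intro t ht
    obtain ⟨i, rfl⟩ := Subgroup.mem_zpowers_iff.mp ht
    exact ((Commute.zpow_left (show Commute y₁ b from hy₁c b (hA₁E hb)) i)).eq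
  have hcardB : Nat.card B ≤ Nat.card A := by
    have h1 : cj k⁻¹ B ≤ S := by
      intro t ht
      rw [mem_cj, inv_inv] at ht
      have h2 := hBE ht
      rw [hEk, mem_cj] at h2
      have e : k⁻¹ * (k * t * k⁻¹) * k = t := by group
      rwa [e] at h2
    have h2 : cj k⁻¹ B ∈ nAb 0 S :=
      ⟨h1, Subgroup.map_isMulCommutative _ _, fun _ _ => pow_zero _⟩
    have h3 := hA.2 _ h2
    rwa [card_map_conj] at h3
  have hy₁B : y₁ ∈ B := (le_sup_left : Subgroup.zpowers y₁ ≤ B) (Subgroup.mem_zpowers y₁)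
  have := sq_mem_of_card_le (le_sup_right : A₁ ≤ B) (hcardB.trans hcard) hy₁B
  rwa [hy₁sq] at this

/-- `O₂(H/C_H(V)) = 1` in a minimal counterexample. -/
theorem hO2 [Fact (Nat.Prime 2)] (h : MC 2 H S D x) :
    ∀ Q : Subgroup G, Q ≤ H → (∀ g ∈ H, ∀ q ∈ Q, g * q * g⁻¹ ∈ Q) →
      (∀ q ∈ Q, ∃ k : ℕ, ∀ v ∈ Vx H x, q ^ (2 ^ k) * v * (q ^ (2 ^ k))⁻¹ = v) →
      ∀ q ∈ Q, ∀ v ∈ Vx H x, q * v * q⁻¹ = v := by
  intro Q hQH hQn hQ2
  by_cases hH' : Q ⊔ S = H
  · exfalso
    set C : Subgroup G := H ⊓ Subgroup.centralizer ((Vx H x : Subgroup G) : Set G) with hC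
    have hmemC : ∀ t : G, t ∈ C ↔ t ∈ H ∧ ∀ v ∈ Vx H x, t * v = v * t := by
      intro t
      rw [hC, Subgroup.mem_inf, Subgroup.mem_centralizer_iff]
      constructor
      · rintro ⟨h1, h2⟩
        exact ⟨h1, fun v hv => (h2 v hv).symm⟩
      · rintro ⟨h1, h2⟩
        exact ⟨h1, fun v hv => (h2 v hv).symm⟩
    haveI hCn : (C.subgroupOf H).Normal := by
      constructor
      intro n hn g
      rw [Subgroup.mem_subgroupOf] at hn ⊢
      rw [hmemC] at hn ⊢
      refine ⟨(g * n * g⁻¹).2, ?_⟩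
      intro v hv
      have h1 : (g : G)⁻¹ * v * g ∈ Vx H x := by
        have := V_norm (x := x) (H.inv_mem g.2) v hv
        simpa using this
      have h2 := hn.2 _ h1
      show (g : G) * n * (g : G)⁻¹ * v = v * ((g : G) * n * (g : G)⁻¹)
      calc (g : G) * n * (g : G)⁻¹ * v = g * ((n : G) * ((g : G)⁻¹ * v * g)) * (g : G)⁻¹ := by
            group
        _ = g * (((g : G)⁻¹ * v * g) * (n : G)) * (g : G)⁻¹ := by rw [h2]
        _ = v * ((g : G) * n * (g : G)⁻¹) := by group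
    set π := QuotientGroup.mk' (C.subgroupOf H) with hπ
    have hπs : Function.Surjective π := QuotientGroup.mk'_surjective _
    haveI hQnorm : (Q.subgroupOf H).Normal := by
      constructor
      intro n hn g
      rw [Subgroup.mem_subgroupOf] at hn ⊢
      exact hQn g g.2 n hn
    haveI hQ'n : ((Q.subgroupOf H).map π).Normal := Subgroup.Normal.map hQnorm π hπs
    have hQ'p : IsPGroup 2 ((Q.subgroupOf H).map π) := by
      rintro ⟨_, q', hq', rfl⟩
      rw [SetLike.mem_coe, Subgroup.mem_subgroupOf] at hq'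
      obtain ⟨k, hk⟩ := hQ2 _ hq'
      refine ⟨k, ?_⟩
      apply Subtype.ext
      show (π q') ^ 2 ^ k = 1
      rw [← map_pow, hπ, QuotientGroup.mk'_apply, QuotientGroup.eq_one_iff,
        Subgroup.mem_subgroupOf, hmemC]
      refine ⟨(q' ^ 2 ^ k).2, ?_⟩
      intro v hv
      have h1 := hk v hv
      show ((q' ^ 2 ^ k : ↥H) : G) * v = v * ((q' ^ 2 ^ k : ↥H) : G)
      rw [Subgroup.coe_pow]
      calc (q' : G) ^ 2 ^ k * v = ((q' : G) ^ 2 ^ k * v * ((q' : G) ^ 2 ^ k)⁻¹) * (q' : G) ^ 2 ^ k := by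
            group
        _ = v * (q' : G) ^ 2 ^ k := by rw [h1]
    have hS'p : IsPGroup 2 ((S.subgroupOf H).map π) :=
      (h.hS.isPGroup.comap_subtype (K := H)).map π
    have hsup : IsPGroup 2 ↥((Q.subgroupOf H).map π ⊔ (S.subgroupOf H).map π) :=
      hQ'p.to_sup_of_normal_left hS'p
    have htop : (Q.subgroupOf H).map π ⊔ (S.subgroupOf H).map π = ⊤ := by
      rw [← Subgroup.map_sup, ← Subgroup.subgroupOf_sup hQH h.hS.1, hH', Subgroup.subgroupOf_self,
        Subgroup.map_top_of_surjective π hπs]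
    have hQb : IsPGroup 2 (↥H ⧸ C.subgroupOf H) := by
      intro y
      obtain ⟨k, hk⟩ := hsup ⟨y, by rw [htop]; trivial⟩
      exact ⟨k, congrArg Subtype.val hk⟩
    obtain ⟨n, hn⟩ := hQb.exists_card_eq
    have hCH : C ≤ H := inf_le_left
    have hrel : C.relIndex H = 2 ^ n := by
      unfold Subgroup.relIndex
      rw [Subgroup.index_eq_card, hn]
    have hTH : S ⊔ C ≤ H := sup_le h.hS.1 hCH
    have h1 := Subgroup.relIndex_mul_relIndex C (S ⊔ C) H (le_sup_right : C ≤ S ⊔ C) hTH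
    rw [hrel] at h1
    have h2 : (S ⊔ C).relIndex H ∣ 2 ^ n := Dvd.intro_left _ h1
    obtain ⟨j, -, hj⟩ := (Nat.dvd_prime_pow Nat.prime_two).mp h2
    have h3 := card_mul_relIndex_of_le hTH
    rw [hj] at h3
    have hj0 : j = 0 := by
      by_contra hj0
      have h4 : Nat.card S ∣ Nat.card ↥(S ⊔ C) := Subgroup.card_dvd_of_le le_sup_left
      rw [h.hS.2] at h4
      have h5 : 2 ^ ((Nat.card H).factorization 2 + 1) ∣ Nat.card H := by
        have h6 : 2 ^ (Nat.card H).factorization 2 * 2 ∣ Nat.card ↥(S ⊔ C) * 2 ^ j :=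
          Nat.mul_dvd_mul h4 (dvd_pow_self 2 hj0)
        rw [h3] at h6
        rwa [pow_succ]
      exact Nat.pow_succ_factorization_not_dvd Nat.card_pos.ne' Nat.prime_two h5
    rw [hj0, pow_zero] at hj
    have hHT : H ≤ S ⊔ C := Subgroup.relIndex_eq_one.mp hj
    apply h.hnot
    intro g hg
    have h6 : S ⊔ C ≤ Subgroup.centralizer ({x} : Set G) := by
      apply sup_le
      · intro s hs
        rw [Subgroup.mem_centralizer_iff]
        intro y hy
        rw [Set.mem_singleton_iff] at hy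
        rw [hy]; exact (h.x_central s hs).symm
      · intro c hc
        rw [Subgroup.mem_centralizer_iff]
        intro y hy
        rw [Set.mem_singleton_iff] at hy
        rw [hy]
        exact (((hmemC c).mp hc).2 x (xV H x)).symm
    exact (Subgroup.mem_centralizer_iff.mp (h6 (hHT hg)) x (Set.mem_singleton x)).symm
  · have h1 := h.hmax (Q ⊔ S) (sup_le hQH h.hS.1) hH' ((nJ_le 0 S).trans le_sup_right)
    intro q hq v hv
    have h2 : ∀ u ∈ Om H x, q * u = u * q := by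
      rintro _ ⟨g, hg, rfl⟩
      have h3 : g⁻¹ * q * g ∈ Q := by
        have := hQn g⁻¹ (H.inv_mem hg) q hq
        simpa using this
      have h4 := h1 _ ((le_sup_left : Q ≤ Q ⊔ S) h3)
      calc q * (g * x * g⁻¹) = g * ((g⁻¹ * q * g) * x) * g⁻¹ := by group
        _ = g * (x * (g⁻¹ * q * g)) * g⁻¹ := by rw [h4]
        _ = g * x * g⁻¹ * q := by group
    have h5 := cent_V_of_fix h2 v hv
    rw [h5]
    group

end MC

end Cfsg.Agent.H52.Wc
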