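import Mathlib
import Cfsg.Agent.H52.WcD
import Cfsg.Agent.H43.TraceConj
import Cfsg.Agent.H28.S4T

/-!
# Glauberman's weak closure theorem (S2799): the minimal counterexample, part 4 (helper52)

The orbit analysis: every non-fixed conjugate `u` of `x` gives a normal subgroup `K₁` of index
`p` in `J'` and an element `a` with the norm identity; then the trace lemma finishes.
-/

set_option autoImplicit false
set_option linter.unusedSectionVars false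
set_option linter.unusedVariables false

namespace Cfsg.Agent.H52.Wc

open Cfsg Cfsg.Agent.Helper55 Cfsg.Agent.H29

variable {G : Type*} [Group G]

/-- `C_V(A₁)`. -/
def Uc (V A₁ : Subgroup G) : Subgroup G := V ⊓ Subgroup.centralizer (A₁ : Set G)

theorem mem_Uc {V A₁ : Subgroup G} {v : G} :
    v ∈ Uc V A₁ ↔ v ∈ V ∧ ∀ b ∈ A₁, b * v = v * b := by
  unfold Uc
  rw [Subgroup.mem_inf, Subgroup.mem_centralizer_iff]
  exact Iff.rfl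

/-- the local configuration at a non-fixed conjugate `u`. -/
structure Cfg (p : ℕ) (H S D : Subgroup G) (x : G) (m : ℕ) (A₀ : Subgroup G) (u : G)
    (K₁ A : Subgroup G) (a : G) : Prop where
  md : MD p H S D x m A₀
  hu : u ∈ Om H x
  hK₁J : K₁ ≤ Jp S (Vx H x) m
  hK₁n : ∀ k ∈ Jp S (Vx H x) m, ∀ y ∈ K₁, k * y * k⁻¹ ∈ K₁
  hcard : Nat.card (Jp S (Vx H x) m) = p * Nat.card K₁
  hstab : ∀ k ∈ Jp S (Vx H x) m, k * u * k⁻¹ = u → k ∈ K₁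
  hA : A ∈ nMax 0 S
  hAm : Nat.card ↥(A ⊓ Vx H x) = m
  hAJ : A ≤ Jp S (Vx H x) m
  haA : a ∈ A
  haK : a ∉ K₁

theorem MD.exists_cfg [Finite G] {p : ℕ} [Fact p.Prime] {H S D : Subgroup G} {x : G} {m : ℕ}
    {A₀ : Subgroup G} (h : MD p H S D x m A₀) {u : G} (hu : u ∈ Om H x) (hux : u ≠ x) :
    ∃ K₁ A a, Cfg p H S D x m A₀ u K₁ A a := by
  have hp : p.Prime := Fact.out
  have hu' := hu
  obtain ⟨g, hg, rfl⟩ := hu
  set R : Subgroup G := Jp S (Vx H x) m ⊓ Subgroup.centralizer ({g * x * g⁻¹} : Set G) with hR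
  have hmemR : ∀ k : G, k ∈ R ↔ k ∈ Jp S (Vx H x) m ∧ k * (g * x * g⁻¹) = (g * x * g⁻¹) * k := by
    intro k
    rw [hR, Subgroup.mem_inf, Subgroup.mem_centralizer_iff]
    constructor
    · rintro ⟨h1, h2⟩
      exact ⟨h1, (h2 _ (Set.mem_singleton _)).symm⟩
    · rintro ⟨h1, h2⟩
      refine ⟨h1, ?_⟩
      intro y hy
      rw [Set.mem_singleton_iff] at hy
      rw [hy]; exact h2.symm
  have hRne : R ≠ Jp S (Vx H x) m := by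
    intro heq
    apply hux
    apply h.ufp g hg
    intro k hk
    rw [← heq] at hk
    exact ((hmemR k).mp hk).2
  obtain ⟨K₁, hRK, hKJ, hKn, hcard⟩ := exists_index_p_normal h.Jp_isPGroup inf_le_left hRne
  have hstab : ∀ k ∈ Jp S (Vx H x) m, k * (g * x * g⁻¹) * k⁻¹ = g * x * g⁻¹ → k ∈ K₁ := by
    intro k hk hfix
    apply hRK
    rw [hmemR]
    refine ⟨hk, ?_⟩
    calc k * (g * x * g⁻¹) = k * (g * x * g⁻¹) * k⁻¹ * k := by group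
      _ = g * x * g⁻¹ * k := by rw [hfix]
  have hex : ∃ A, (A ∈ nMax 0 S ∧ (Vx H x ≤ A ∨ Nat.card ↥(A ⊓ Vx H x) = m)) ∧ ¬ A ≤ K₁ := by
    by_contra hcon
    have hall : Jp S (Vx H x) m ≤ K₁ := by
      apply sSup_le
      intro A hA
      by_contra h1
      exact hcon ⟨A, hA, h1⟩
    have h1 := Subgroup.card_le_of_le hall
    rw [hcard] at h1
    have hpos : 0 < Nat.card K₁ := Nat.card_pos
    have h2 : 2 * Nat.card K₁ ≤ p * Nat.card K₁ := Nat.mul_le_mul_right _ hp.two_le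
    omega
  obtain ⟨A, ⟨hA, hP⟩, hAK⟩ := hex
  obtain ⟨a, haA, haK⟩ := SetLike.not_le_iff_exists.mp hAK
  have hAJ : A ≤ Jp S (Vx H x) m := h.le_Jp hA hP
  have hVA : ¬ Vx H x ≤ A := by
    intro hVA
    apply hAK
    intro b hb
    apply hRK
    rw [hmemR]
    exact ⟨hAJ hb, comm_of_mem_nMax hA b hb _ (hVA (Subgroup.subset_closure hu'))⟩
  have hAm : Nat.card ↥(A ⊓ Vx H x) = m := by
    rcases hP with hP | hP
    · exact absurd hP hVA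
    · exact hP
  exact ⟨K₁, A, a, h, hu', hKJ, hKn, hcard, hstab, hA, hAm, hAJ, haA, haK⟩

namespace Cfg

variable [Finite G] {p : ℕ} [Fact p.Prime] {H S D : Subgroup G} {x : G} {m : ℕ}
  {A₀ : Subgroup G} {u : G} {K₁ A : Subgroup G} {a : G}

theorem aS (c : Cfg p H S D x m A₀ u K₁ A a) : a ∈ S := c.hA.1.1 c.haA

theorem aH (c : Cfg p H S D x m A₀ u K₁ A a) : a ∈ H := c.md.mc.hS.1 c.aS

theorem card_A_le (c : Cfg p H S D x m A₀ u K₁ A a) :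
    Nat.card A ≤ p * Nat.card ↥(A ⊓ K₁) := by
  have hp : p.Prime := Fact.out
  have h1 := card_mul_relIndex_of_le c.hK₁J
  rw [c.hcard] at h1
  have hpos : 0 < Nat.card K₁ := Nat.card_pos
  have hr : K₁.relIndex (Jp S (Vx H x) m) = p := by
    have : Nat.card K₁ * K₁.relIndex (Jp S (Vx H x) m) = Nat.card K₁ * p := by
      rw [h1, mul_comm]
    exact Nat.eq_of_mul_eq_mul_left hpos this
  have h2 : K₁.relIndex A ≤ K₁.relIndex (Jp S (Vx H x) m) :=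
    Subgroup.relIndex_le_of_le_right c.hAJ (by rw [hr]; exact hp.ne_zero)
  have h3 := card_mul_relIndex_of_le (inf_le_left : A ⊓ K₁ ≤ A)
  rw [Subgroup.inf_relIndex_left] at h3
  rw [← h3, mul_comm]
  exact Nat.mul_le_mul_right _ (h2.trans (le_of_eq hr))

theorem U_le_S (c : Cfg p H S D x m A₀ u K₁ A a) : Uc (Vx H x) (A ⊓ K₁) ≤ S :=
  inf_le_left.trans c.md.mc.V_le_S

theorem U_comm (c : Cfg p H S D x m A₀ u K₁ A a) :
    ∀ v ∈ Uc (Vx H x) (A ⊓ K₁), ∀ v' ∈ Uc (Vx H x) (A ⊓ K₁), v * v' = v' * v :=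
  fun v hv v' hv' => c.md.mc.V_comm v (mem_Uc.mp hv).1 v' (mem_Uc.mp hv').1

theorem A₁_comm (c : Cfg p H S D x m A₀ u K₁ A a) :
    ∀ b ∈ A ⊓ K₁, ∀ b' ∈ A ⊓ K₁, b * b' = b' * b :=
  fun b hb b' hb' => comm_of_mem_nMax c.hA b hb.1 b' hb'.1

theorem sup_mem_nAb (c : Cfg p H S D x m A₀ u K₁ A a) :
    Uc (Vx H x) (A ⊓ K₁) ⊔ (A ⊓ K₁) ∈ nAb 0 S := by
  refine ⟨sup_le c.U_le_S (inf_le_left.trans c.hA.1.1), ?_, fun _ _ => pow_zero _⟩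
  apply Cfsg.Agent.H14.sup_isMulCommutative _ _ (isMulCommutative_of_comm c.U_comm)
    (isMulCommutative_of_comm c.A₁_comm)
  intro b hb
  rw [Subgroup.mem_centralizer_iff]
  intro v hv
  exact ((mem_Uc.mp hv).2 b hb).symm

theorem card_U_le (c : Cfg p H S D x m A₀ u K₁ A a) :
    Nat.card (Uc (Vx H x) (A ⊓ K₁)) ≤
      p * Nat.card ↥(Uc (Vx H x) (A ⊓ K₁) ⊓ (A ⊓ K₁)) := by
  have h1 := card_mul_card_le (Uc (Vx H x) (A ⊓ K₁)) (A ⊓ K₁)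
  have h2 : Nat.card ↥(Uc (Vx H x) (A ⊓ K₁) ⊔ (A ⊓ K₁)) ≤ Nat.card A := c.hA.2 _ c.sup_mem_nAb
  have h3 := c.card_A_le
  have hpos : 0 < Nat.card ↥(A ⊓ K₁) := Nat.card_pos
  have h4 : Nat.card ↥(A ⊓ K₁) * Nat.card (Uc (Vx H x) (A ⊓ K₁)) ≤
      Nat.card ↥(A ⊓ K₁) * (p * Nat.card ↥(Uc (Vx H x) (A ⊓ K₁) ⊓ (A ⊓ K₁))) := by
    calc Nat.card ↥(A ⊓ K₁) * Nat.card (Uc (Vx H x) (A ⊓ K₁))
        = Nat.card (Uc (Vx H x) (A ⊓ K₁)) * Nat.card ↥(A ⊓ K₁) := mul_comm _ _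
      _ ≤ Nat.card ↥(Uc (Vx H x) (A ⊓ K₁) ⊔ (A ⊓ K₁)) *
            Nat.card ↥(Uc (Vx H x) (A ⊓ K₁) ⊓ (A ⊓ K₁)) := h1
      _ ≤ Nat.card A * Nat.card ↥(Uc (Vx H x) (A ⊓ K₁) ⊓ (A ⊓ K₁)) :=
          Nat.mul_le_mul_right _ h2
      _ ≤ (p * Nat.card ↥(A ⊓ K₁)) * Nat.card ↥(Uc (Vx H x) (A ⊓ K₁) ⊓ (A ⊓ K₁)) :=
          Nat.mul_le_mul_right _ h3
      _ = Nat.card ↥(A ⊓ K₁) * (p * Nat.card ↥(Uc (Vx H x) (A ⊓ K₁) ⊓ (A ⊓ K₁))) := by ring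
  exact Nat.le_of_mul_le_mul_left h4 hpos

theorem a_norm_U (c : Cfg p H S D x m A₀ u K₁ A a) :
    ∀ v ∈ Uc (Vx H x) (A ⊓ K₁), a * v * a⁻¹ ∈ Uc (Vx H x) (A ⊓ K₁) := by
  intro v hv
  rw [mem_Uc] at hv ⊢
  refine ⟨MC.V_norm c.aH v hv.1, ?_⟩
  intro b hb
  have hba : Commute b a := comm_of_mem_nMax c.hA b hb.1 a c.haA
  have hbv : Commute b v := hv.2 b hb
  exact ((hba.mul_right hbv).mul_right hba.inv_right).eq

theorem a_cent_U₀ (c : Cfg p H S D x m A₀ u K₁ A a) :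
    ∀ v ∈ Uc (Vx H x) (A ⊓ K₁) ⊓ (A ⊓ K₁), a * v * a⁻¹ = v := by
  intro v hv
  have h1 : a * v = v * a := comm_of_mem_nMax c.hA a c.haA v hv.2.1
  rw [h1]
  group

theorem quad (c : Cfg p H S D x m A₀ u K₁ A a) {w : G} (hw : w ∈ Uc (Vx H x) (A ⊓ K₁)) :
    w⁻¹ * (a * w * a⁻¹) ∈ Uc (Vx H x) (A ⊓ K₁) ⊓ (A ⊓ K₁) ∧ (w⁻¹ * (a * w * a⁻¹)) ^ p = 1 := by
  have hSp := c.md.mc.hS.isPGroup
  have hap : ∃ r : ℕ, a ^ (p ^ r) = 1 := by
    obtain ⟨r, hr⟩ := hSp ⟨a, c.aS⟩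
    exact ⟨r, by simpa using congrArg Subtype.val hr⟩
  exact quad_lemma inf_le_left (hSp.to_le c.U_le_S) c.U_comm c.card_U_le a c.a_norm_U
    c.a_cent_U₀ hap w hw

theorem w_mem_U (c : Cfg p H S D x m A₀ u K₁ A a) {w : G} (hw : w ∈ Vx H x)
    (hfix : ∀ k ∈ K₁, k * w * k⁻¹ = w) : w ∈ Uc (Vx H x) (A ⊓ K₁) := by
  rw [mem_Uc]
  refine ⟨hw, ?_⟩
  intro b hb
  have h1 := hfix b hb.2
  calc b * w = b * w * b⁻¹ * b := by group
    _ = w * b := by rw [h1]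

theorem norm_odd (c : Cfg p H S D x m A₀ u K₁ A a) (hp2 : p ≠ 2) {w : G} (hw : w ∈ Vx H x)
    (hfix : ∀ k ∈ K₁, k * w * k⁻¹ = w) :
    ((List.range p).map (fun i => a ^ i * w * (a ^ i)⁻¹)).prod = w ^ p := by
  have hwU := c.w_mem_U hw hfix
  obtain ⟨he₀, hep⟩ := c.quad hwU
  have he : a * w * a⁻¹ = w * (w⁻¹ * (a * w * a⁻¹)) := by group
  exact list_prod_quad_odd hp2 he (c.a_cent_U₀ _ he₀) (c.U_comm w hwU _ he₀.1) hep

end Cfg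

end Cfsg.Agent.H52.Wc
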