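import Mathlib
import Cfsg.Agent.H52.WcE

/-!
# Glauberman's weak closure theorem (S2799): the minimal counterexample, part 5 (helper52)

The case `p = 2` (transvection configuration) and the final contradiction.
-/

set_option autoImplicit false
set_option linter.unusedSectionVars false
set_option linter.unusedVariables false

namespace Cfsg.Agent.H52.Wc

open Cfsg Cfsg.Agent.Helper55 Cfsg.Agent.H29

variable {G : Type*} [Group G]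

namespace Cfg

variable [Finite G] {H S D : Subgroup G} {x : G} {m : ℕ}
  {A₀ : Subgroup G} {u : G} {K₁ A : Subgroup G} {a : G}

/-- for `p = 2`, `a` centralizes `C_V(A₁)`. -/
theorem two_false [Fact (Nat.Prime 2)] (c : Cfg 2 H S D x m A₀ u K₁ A a) {w : G}
    (hw : w ∈ Uc (Vx H x) (A ⊓ K₁)) (hne : a * w * a⁻¹ ≠ w) : False := by
  have hmc := c.md.mc
  obtain ⟨heU₀, he2⟩ := c.quad hw
  set e : G := w⁻¹ * (a * w * a⁻¹) with he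
  have hawe : a * w * a⁻¹ = w * e := by rw [he]; group
  have he1 : e ≠ 1 := by
    intro h1
    apply hne
    rw [hawe, h1, mul_one]
  have hAcomm := comm_of_mem_nMax c.hA
  have ha₀ := c.a_cent_U₀
  -- T1
  have hwU₀ : w ∉ Uc (Vx H x) (A ⊓ K₁) ⊓ (A ⊓ K₁) := fun h1 => hne (ha₀ w h1)
  -- T2
  have hpos : 0 < Nat.card ↥(Uc (Vx H x) (A ⊓ K₁) ⊓ (A ⊓ K₁)) := Nat.card_pos
  have hcardU : Nat.card (Uc (Vx H x) (A ⊓ K₁)) =
      2 * Nat.card ↥(Uc (Vx H x) (A ⊓ K₁) ⊓ (A ⊓ K₁)) := by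
    have h1 := c.card_U_le
    have h2 : Nat.card ↥(Uc (Vx H x) (A ⊓ K₁) ⊓ (A ⊓ K₁)) ∣ Nat.card (Uc (Vx H x) (A ⊓ K₁)) :=
      Subgroup.card_dvd_of_le inf_le_left
    have h3 : Nat.card ↥(Uc (Vx H x) (A ⊓ K₁) ⊓ (A ⊓ K₁)) < Nat.card (Uc (Vx H x) (A ⊓ K₁)) := by
      by_contra hcon
      rw [not_lt] at hcon
      have h4 := Subgroup.eq_of_le_of_card_ge
        (inf_le_left : Uc (Vx H x) (A ⊓ K₁) ⊓ (A ⊓ K₁) ≤ Uc (Vx H x) (A ⊓ K₁)) hcon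
      apply hwU₀
      rw [h4]
      exact hw
    obtain ⟨k, hk⟩ := h2
    rw [hk] at h1 h3 ⊢
    have hk1 : 1 < k := by
      by_contra hcon
      rw [not_lt] at hcon
      have : Nat.card ↥(Uc (Vx H x) (A ⊓ K₁) ⊓ (A ⊓ K₁)) * k ≤
          Nat.card ↥(Uc (Vx H x) (A ⊓ K₁) ⊓ (A ⊓ K₁)) * 1 := Nat.mul_le_mul_left _ hcon
      omega
    have hk2 : k ≤ 2 := by
      have : Nat.card ↥(Uc (Vx H x) (A ⊓ K₁) ⊓ (A ⊓ K₁)) * k ≤
          Nat.card ↥(Uc (Vx H x) (A ⊓ K₁) ⊓ (A ⊓ K₁)) * 2 := by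
        rw [mul_comm _ 2]; exact h1
      exact Nat.le_of_mul_le_mul_left this hpos
    have : k = 2 := by omega
    rw [this, mul_comm]
  -- T3
  have hnAb := c.sup_mem_nAb
  have hAs : Uc (Vx H x) (A ⊓ K₁) ⊔ (A ⊓ K₁) ∈ nMax 0 S := by
    apply mem_nMax_of_card_eq c.hA hnAb
    apply le_antisymm (c.hA.2 _ hnAb)
    have h1 := card_mul_card_le (Uc (Vx H x) (A ⊓ K₁)) (A ⊓ K₁)
    rw [hcardU] at h1
    have h2 : Nat.card ↥(Uc (Vx H x) (A ⊓ K₁) ⊓ (A ⊓ K₁)) * (2 * Nat.card ↥(A ⊓ K₁)) ≤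
        Nat.card ↥(Uc (Vx H x) (A ⊓ K₁) ⊓ (A ⊓ K₁)) *
          Nat.card ↥(Uc (Vx H x) (A ⊓ K₁) ⊔ (A ⊓ K₁)) := by
      calc Nat.card ↥(Uc (Vx H x) (A ⊓ K₁) ⊓ (A ⊓ K₁)) * (2 * Nat.card ↥(A ⊓ K₁))
          = 2 * Nat.card ↥(Uc (Vx H x) (A ⊓ K₁) ⊓ (A ⊓ K₁)) * Nat.card ↥(A ⊓ K₁) := by ring
        _ ≤ Nat.card ↥(Uc (Vx H x) (A ⊓ K₁) ⊔ (A ⊓ K₁)) *
              Nat.card ↥(Uc (Vx H x) (A ⊓ K₁) ⊓ (A ⊓ K₁)) := h1
        _ = _ := mul_comm _ _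
    have h3 := Nat.le_of_mul_le_mul_left h2 hpos
    exact c.card_A_le.trans h3
  -- T4
  have hidx : ((Uc (Vx H x) (A ⊓ K₁) ⊓ (A ⊓ K₁)).subgroupOf (Uc (Vx H x) (A ⊓ K₁))).index = 2 := by
    have h1 := ((Uc (Vx H x) (A ⊓ K₁) ⊓ (A ⊓ K₁)).subgroupOf (Uc (Vx H x) (A ⊓ K₁))).card_mul_index
    have h2 : Nat.card ((Uc (Vx H x) (A ⊓ K₁) ⊓ (A ⊓ K₁)).subgroupOf (Uc (Vx H x) (A ⊓ K₁))) =
        Nat.card ↥(Uc (Vx H x) (A ⊓ K₁) ⊓ (A ⊓ K₁)) :=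
      Nat.card_congr (Subgroup.subgroupOfEquivOfLe inf_le_left).toEquiv
    rw [h2, hcardU, mul_comm 2] at h1
    exact Nat.eq_of_mul_eq_mul_left hpos h1
  have hdich : ∀ v ∈ Uc (Vx H x) (A ⊓ K₁),
      v ∈ Uc (Vx H x) (A ⊓ K₁) ⊓ (A ⊓ K₁) ∨ v * w⁻¹ ∈ Uc (Vx H x) (A ⊓ K₁) ⊓ (A ⊓ K₁) := by
    intro v hv
    by_cases hv₀ : v ∈ Uc (Vx H x) (A ⊓ K₁) ⊓ (A ⊓ K₁)
    · exact Or.inl hv₀
    · right
      have h1 := Subgroup.mul_mem_iff_of_index_two hidx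
        (a := (⟨v, hv⟩ : ↥(Uc (Vx H x) (A ⊓ K₁)))) (b := (⟨w, hw⟩ : ↥(Uc (Vx H x) (A ⊓ K₁)))⁻¹)
      have h2 : ((⟨v, hv⟩ : ↥(Uc (Vx H x) (A ⊓ K₁))) * (⟨w, hw⟩ : ↥(Uc (Vx H x) (A ⊓ K₁)))⁻¹ ∈
          (Uc (Vx H x) (A ⊓ K₁) ⊓ (A ⊓ K₁)).subgroupOf (Uc (Vx H x) (A ⊓ K₁))) := by
        rw [h1]
        constructor
        · intro h3
          exact absurd (Subgroup.mem_subgroupOf.mp h3) hv₀
        · intro h3
          have h4 := Subgroup.mem_subgroupOf.mp h3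
          have h5 : w⁻¹ ∈ Uc (Vx H x) (A ⊓ K₁) ⊓ (A ⊓ K₁) := h4
          exact absurd ((Subgroup.inv_mem_iff _).mp h5) hwU₀
      exact Subgroup.mem_subgroupOf.mp h2
  -- T5
  have hcent : ∀ v ∈ Uc (Vx H x) (A ⊓ K₁), a * v * a⁻¹ = v →
      v ∈ Uc (Vx H x) (A ⊓ K₁) ⊓ (A ⊓ K₁) := by
    intro v hv hav
    rcases hdich v hv with h1 | h1
    · exact h1
    · exfalso
      apply he1
      have h2 := ha₀ _ h1
      have h3 : a * v * a⁻¹ = (a * (v * w⁻¹) * a⁻¹) * (a * w * a⁻¹) := by group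
      rw [h2, hawe, hav] at h3
      have h4 : v = v * e := by
        calc v = v * w⁻¹ * (w * e) := h3
          _ = v * e := by group
      have h5 : v * 1 = v * e := by rw [mul_one]; exact h4
      exact (mul_left_cancel h5).symm
  -- T6
  have hAV : A ⊓ Vx H x ≤ Uc (Vx H x) (A ⊓ K₁) ⊓ (A ⊓ K₁) := by
    intro v hv
    apply hcent
    · rw [mem_Uc]
      exact ⟨hv.2, fun b hb => hAcomm b hb.1 v hv.1⟩
    · have h1 : a * v = v * a := hAcomm a c.haA v hv.1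
      rw [h1]; group
  -- T7
  have hwV : w ∈ Vx H x := (mem_Uc.mp hw).1
  have hlt : Nat.card ↥(A ⊓ Vx H x) <
      Nat.card ↥((Uc (Vx H x) (A ⊓ K₁) ⊔ (A ⊓ K₁)) ⊓ Vx H x) := by
    have hle' : A ⊓ Vx H x ≤ (Uc (Vx H x) (A ⊓ K₁) ⊔ (A ⊓ K₁)) ⊓ Vx H x :=
      le_inf (hAV.trans (inf_le_left.trans le_sup_left)) inf_le_right
    by_contra hcon
    rw [not_lt] at hcon
    have h1 := Subgroup.eq_of_le_of_card_ge hle' hcon
    apply hwU₀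
    apply hAV
    rw [h1]
    exact ⟨(le_sup_left : Uc (Vx H x) (A ⊓ K₁) ≤ _) hw, hwV⟩
  -- T8
  have hVAs : Vx H x ≤ Uc (Vx H x) (A ⊓ K₁) ⊔ (A ⊓ K₁) := by
    by_contra hcon
    have h1 := c.md.hm _ hAs hcon
    rw [← c.hAm] at h1
    omega
  -- T9
  have hVU : Vx H x ≤ Uc (Vx H x) (A ⊓ K₁) := by
    intro v hv
    rw [mem_Uc]
    refine ⟨hv, fun b hb => ?_⟩
    exact comm_of_mem_nMax hAs b ((le_sup_right : A ⊓ K₁ ≤ _) hb) v (hVAs hv)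
  -- T10
  have htrans : ∀ v ∈ Vx H x, a * v * a⁻¹ = v ∨ a * v * a⁻¹ = v * e := by
    intro v hv
    rcases hdich v (hVU hv) with h1 | h1
    · exact Or.inl (ha₀ v h1)
    · right
      have h2 := ha₀ _ h1
      have h3 : a * v * a⁻¹ = (a * (v * w⁻¹) * a⁻¹) * (a * w * a⁻¹) := by group
      rw [h2, hawe] at h3
      rw [h3]; group
  -- T11
  have heV : e ∈ Vx H x := (mem_Uc.mp heU₀.1).1
  have hee : e * e = 1 := by rw [← pow_two]; exact he2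
  rcases hmc.hyp with hp2 | ⟨z, hzS, hzc, hz⟩ | hS4
  · exact hp2 rfl
  · obtain ⟨g, hg, hug⟩ := c.hu
    have hcentu : ∀ b ∈ A ⊓ K₁, b * (g * x * g⁻¹) = (g * x * g⁻¹) * b := by
      intro b hb
      have h1 : g * x * g⁻¹ ∈ Uc (Vx H x) (A ⊓ K₁) := hVU (Subgroup.subset_closure ⟨g, hg, rfl⟩)
      exact (mem_Uc.mp h1).2 b hb
    have hmem := hmc.root_mem c.hA inf_le_left c.card_A_le hzS hzc hz hg hcentu
    apply c.haK
    apply c.hstab a (c.hAJ c.haA)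
    rw [hug]
    have h1 : a * (g * x * g⁻¹) = (g * x * g⁻¹) * a := hAcomm a c.haA _ hmem.1
    rw [h1]; group
  · apply hS4
    exact Cfsg.Agent.H28.S4T.involves_S4_of_transvection H (Vx H x) hmc.V_le_H hmc.V_comm
      (fun g hg v hv => MC.V_norm hg v hv) a e c.aH heV he1 hee htrans ⟨w, hwV, hne⟩ hmc.hO2

theorem norm_two [Fact (Nat.Prime 2)] (c : Cfg 2 H S D x m A₀ u K₁ A a) {w : G}
    (hw : w ∈ Vx H x) (hfix : ∀ k ∈ K₁, k * w * k⁻¹ = w) :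
    ((List.range 2).map (fun i => a ^ i * w * (a ^ i)⁻¹)).prod = w ^ 2 := by
  have hwU := c.w_mem_U hw hfix
  have h1 : a * w * a⁻¹ = w := by
    by_contra hne
    exact c.two_false hwU hne
  simp [List.range_succ, h1, pow_two]

end Cfg

namespace MD

variable [Finite G] {p : ℕ} [Fact p.Prime] {H S D : Subgroup G} {x : G} {m : ℕ}
  {A₀ : Subgroup G}

theorem hQ (h : MD p H S D x m A₀) : ∀ u ∈ Om H x, u ≠ x →
    ∃ (K₁ : Subgroup G) (a : G), K₁ ≤ Jp S (Vx H x) m ∧ a ∈ Jp S (Vx H x) m ∧ a ∉ K₁ ∧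
      (∀ k ∈ Jp S (Vx H x) m, ∀ y ∈ K₁, k * y * k⁻¹ ∈ K₁) ∧
      Nat.card (Jp S (Vx H x) m) = p * Nat.card K₁ ∧
      (∀ k ∈ Jp S (Vx H x) m, k * u * k⁻¹ = u → k ∈ K₁) ∧
      ∀ w ∈ Vx H x, (∀ k ∈ K₁, k * w * k⁻¹ = w) →
        ((List.range p).map (fun i => a ^ i * w * (a ^ i)⁻¹)).prod = w ^ p := by
  intro u hu hux
  obtain ⟨K₁, A, a, c⟩ := h.exists_cfg hu hux
  refine ⟨K₁, a, c.hK₁J, c.hAJ c.haA, c.haK, c.hK₁n, c.hcard, c.hstab, ?_⟩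
  intro w hw hfix
  by_cases hp2 : p = 2
  · subst hp2
    exact c.norm_two hw hfix
  · exact c.norm_odd hp2 hw hfix

end MD

/-- a minimal counterexample does not exist. -/
theorem MC.false [Finite G] {p : ℕ} [Fact p.Prime] {H S D : Subgroup G} {x : G}
    (h : MC p H S D x) : False := by
  have hp : p.Prime := Fact.out
  obtain ⟨m, A₀, hd⟩ := h.exists_MD
  have hpowΩ : ∀ u ∈ Om H x, u ^ p = x ^ p := by
    rintro _ ⟨g, hg, rfl⟩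
    rw [conj_pow, h.hpow g hg]
    group
  have hxfix : ∀ k ∈ Jp S (Vx H x) m, k * x * k⁻¹ = x := by
    intro k hk
    rw [hd.Jp_fix_x k hk]
    group
  have hfix : ∀ u ∈ Om H x, (∀ k ∈ Jp S (Vx H x) m, k * u * k⁻¹ = u) → u = x := by
    rintro _ ⟨g, hg, rfl⟩ hk
    apply hd.ufp g hg
    intro k hk'
    have h1 := hk k hk'
    calc k * (g * x * g⁻¹) = k * (g * x * g⁻¹) * k⁻¹ * k := by group
      _ = g * x * g⁻¹ * k := by rw [h1]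
  obtain ⟨hinv, hmod⟩ := Cfsg.Agent.H43.trace_conj p (Jp S (Vx H x) m) (Vx H x) hd.Jp_isPGroup
    h.V_comm (fun k hk v hv => MC.V_norm (hd.Jp_le_H hk) v hv) (Om H x)
    (fun u hu => Subgroup.subset_closure hu) (fun k hk u hu => MC.Om_conj (hd.Jp_le_H hk) hu)
    x (MC.x_mem_Om H x) hpowΩ hxfix hfix hd.hQ
  apply h.hnot
  intro g hg
  have h1 := hinv g (MC.V_norm hg) (fun u hu => MC.Om_conj hg hu)
  have hcop : Nat.Coprime (Om H x).ncard (orderOf x) := by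
    obtain ⟨r, hr⟩ := h.hS.isPGroup ⟨x, h.xS⟩
    have hr' : x ^ p ^ r = 1 := by simpa using congrArg Subtype.val hr
    have hdvd : orderOf x ∣ p ^ r := orderOf_dvd_of_pow_eq_one hr'
    have hnp : ¬ p ∣ (Om H x).ncard := by
      intro hdiv
      have := Nat.mod_eq_zero_of_dvd hdiv
      omega
    have h2 : Nat.Coprime p (Om H x).ncard := (Nat.Prime.coprime_iff_not_dvd hp).mpr hnp
    exact Nat.Coprime.coprime_dvd_right hdvd (Nat.Coprime.pow_right r h2.symm)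
  obtain ⟨j, hj⟩ := exists_pow_eq_self_of_coprime hcop
  have h2 : g * x * g⁻¹ = x := by
    calc g * x * g⁻¹ = g * ((x ^ (Om H x).ncard) ^ j) * g⁻¹ := by rw [hj]
      _ = (g * x ^ (Om H x).ncard * g⁻¹) ^ j := by rw [conj_pow]
      _ = (x ^ (Om H x).ncard) ^ j := by rw [h1]
      _ = x := hj
  calc g * x = g * x * g⁻¹ * g := by group
    _ = x * g := by rw [h2]

end Cfsg.Agent.H52.Wc
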