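import Mathlib
import Cfsg.Agent.H52.WcF

/-!
# Glauberman's weak closure theorem (S2799): the relative local theorem (helper52)

`local_thm`: if `S` is a Sylow `p`-subgroup of `H`, `D` a normal `p`-subgroup of `H`, `x ∈ D` is
centralized by `N_H(J(S))`, and `p` is odd, or `x` is a `p`-th power in `Z(S)`, or `S₄` is not
involved in the ambient group, then `x ∈ Z(H)`.
-/

set_option autoImplicit false
set_option linter.unusedSectionVars false
set_option linter.unusedVariables false

namespace Cfsg.Agent.H52.Wc

open Cfsg Cfsg.Agent.Helper55 Cfsg.Agent.H29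

variable {G : Type*} [Group G]

theorem D_le_S_of [Finite G] {p : ℕ} [Fact p.Prime] {H S D : Subgroup G} (hS : IsSylIn p H S)
    (hDH : D ≤ H) (hDp : IsPGroup p D) (hDn : ∀ h ∈ H, ∀ d ∈ D, h * d * h⁻¹ ∈ D) : D ≤ S := by
  have h1 : S ≤ Subgroup.normalizer (D : Set G) := fun s hs =>
    mem_normalizer_of_conj (fun d hd => hDn s (hS.1 hs) d hd)
  have h2 : IsPGroup p ↥(S ⊔ D) := hS.isPGroup.to_sup_of_normal_right' hDp h1
  have h3 : S = S ⊔ D := hS.eq_of_le le_sup_left (sup_le hS.1 hDH) h2
  rw [h3]
  exact le_sup_right

theorem local_thm_nJ [Finite G] {p : ℕ} [Fact p.Prime] :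
    ∀ (N : ℕ) (H : Subgroup G), Nat.card H = N → ∀ (S D : Subgroup G) (x : G),
    IsSylIn p H S → D ≤ H → IsPGroup p D →
    (∀ h ∈ H, ∀ d ∈ D, h * d * h⁻¹ ∈ D) → x ∈ D →
    (∀ n ∈ H, n ∈ Subgroup.normalizer ((nJ 0 S : Subgroup G) : Set G) → n * x = x * n) →
    (p ≠ 2 ∨ (∃ z ∈ S, (∀ s ∈ S, z * s = s * z) ∧ z ^ p = x) ∨
      ¬ Involves (Equiv.Perm (Fin 4)) G) →
    ∀ h ∈ H, h * x = x * h := by
  have hp : p.Prime := Fact.out
  intro N
  induction N using Nat.strong_induction_on with
  | _ N IH =>
    intro H hN S D x hS hDH hDp hDn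
    have hDS : D ≤ S := D_le_S_of hS hDH hDp hDn
    have key : ∀ (n : ℕ) (x : G), orderOf x = n → x ∈ D →
        (∀ n ∈ H, n ∈ Subgroup.normalizer ((nJ 0 S : Subgroup G) : Set G) → n * x = x * n) →
        (p ≠ 2 ∨ (∃ z ∈ S, (∀ s ∈ S, z * s = s * z) ∧ z ^ p = x) ∨
          ¬ Involves (Equiv.Perm (Fin 4)) G) →
        ∀ h ∈ H, h * x = x * h := by
      intro n
      induction n using Nat.strong_induction_on with
      | _ n IHn =>
        intro x hn hxD hxJ hyp
        by_contra hnot
        have hxS : x ∈ S := hDS hxD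
        have hxc : ∀ s ∈ S, s * x = x * s := fun s hs =>
          hxJ s (hS.1 hs) (normalizer_le_normalizer_nJ 0 S (Subgroup.le_normalizer hs))
        have hx1 : x ≠ 1 := by
          rintro rfl
          exact hnot (fun h _ => by simp)
        -- (i) `x ^ p` is central
        have hpow : ∀ h ∈ H, h * x ^ p = x ^ p * h := by
          have hlt : orderOf (x ^ p) < orderOf x := by
            obtain ⟨r, hr⟩ := hS.isPGroup ⟨x, hxS⟩
            have hr' : x ^ p ^ r = 1 := by simpa using congrArg Subtype.val hr
            have hdvd : orderOf x ∣ p ^ r := orderOf_dvd_of_pow_eq_one hr'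
            obtain ⟨k, -, hko⟩ := (Nat.dvd_prime_pow hp).mp hdvd
            have hk0 : k ≠ 0 := by
              rintro rfl
              rw [pow_zero] at hko
              exact hx1 (orderOf_eq_one_iff.mp hko)
            have hpd : p ∣ orderOf x := by
              rw [hko]; exact dvd_pow_self p hk0
            rw [orderOf_pow' x hp.ne_zero, Nat.gcd_eq_right hpd]
            exact Nat.div_lt_self (orderOf_pos x) hp.one_lt
          apply IHn (orderOf (x ^ p)) (hn ▸ hlt) (x ^ p) rfl (D.pow_mem hxD p)
          · intro n' hn' hnn'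
            exact ((show Commute n' x from hxJ n' hn' hnn').pow_right p).eq
          · rcases hyp with h1 | h1 | h1
            · exact Or.inl h1
            · exact Or.inr (Or.inl ⟨x, hxS, fun s hs => (hxc s hs).symm, rfl⟩)
            · exact Or.inr (Or.inr h1)
        -- (ii) proper subgroups containing `J(S)` centralize `x`
        have hmax : ∀ H' : Subgroup G, H' ≤ H → H' ≠ H → nJ 0 S ≤ H' →
            ∀ h ∈ H', h * x = x * h := by
          intro H' hH'H hne hJH'
          have hcardlt : Nat.card H' < Nat.card H := by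
            by_contra hcon
            rw [not_lt] at hcon
            exact hne (Subgroup.eq_of_le_of_card_ge hH'H hcon)
          have hJp : IsPGroup p (nJ 0 S) := hS.isPGroup.to_le (nJ_le 0 S)
          obtain ⟨T, hT, hJT⟩ := exists_isSylIn_ge hJH' hJp
          obtain ⟨P, hP, hTP⟩ := exists_isSylIn_ge (hT.1.trans hH'H) hT.isPGroup
          obtain ⟨g, hg, hPg⟩ := hS.exists_conj hP
          have hmemP : ∀ A, A ∈ nMax 0 S → A ∈ nMax 0 P := by
            intro A hA
            have h1 : cj g A ∈ nMax 0 P := by
              rw [hPg]; exact nMax_map (MulAut.conj g) hA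
            have h2 : A ∈ nAb 0 P :=
              ⟨(le_nJ hA).trans (hJT.trans hTP), hA.1.2.1, fun _ _ => pow_zero _⟩
            exact mem_nMax_of_card_eq h1 h2 (card_map_conj A g).symm
          have hJPg : cj g (nJ 0 S) = nJ 0 P := by
            rw [hPg]; exact nJ_map (MulAut.conj g) 0 S
          have hJP : nJ 0 S = nJ 0 P := by
            apply Subgroup.eq_of_le_of_card_ge
            · exact sSup_le (fun A hA => le_nJ (hmemP A hA))
            · rw [← hJPg, card_map_conj]
          have hgn : g ∈ Subgroup.normalizer ((nJ 0 S : Subgroup G) : Set G) := by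
            rw [Subgroup.mem_normalizer_iff_map_conj_eq]
            have h1 : cj g (nJ 0 S) = nJ 0 S := by rw [hJPg, ← hJP]
            exact h1
          have hgx : g * x = x * g := hxJ g hg hgn
          obtain ⟨A, hA⟩ := exists_mem_nMax 0 S
          have hJT' : nJ 0 T = nJ 0 S := by
            apply le_antisymm
            · rw [hJP]
              exact nJ_le_nJ (hmemP A hA) ((le_nJ hA).trans hJT) hTP
            · exact sSup_le (fun B hB =>
                le_nJ (nMax_of_le (hmemP B hB) ((le_nJ hB).trans hJT) hTP))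
          have hxJS : x ∈ nJ 0 S :=
            le_nJ hA (mem_of_centralizes hA hxS (fun a ha => (hxc a (hA.1.1 ha)).symm))
          apply IH (Nat.card H') (hN ▸ hcardlt) H' rfl T (D ⊓ H') x hT inf_le_right
            (hDp.to_le inf_le_left)
          · intro h hh d hd
            exact ⟨hDn h (hH'H hh) d hd.1, H'.mul_mem (H'.mul_mem hh hd.2) (H'.inv_mem hh)⟩
          · exact ⟨hxD, hJH' hxJS⟩
          · intro n' hn' hnn'
            rw [hJT'] at hnn'
            exact hxJ n' (hH'H hn') hnn'
          · rcases hyp with h1 | ⟨z, hzS, hzc, hz⟩ | h1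
            · exact Or.inl h1
            · right; left
              have hzP : g * z * g⁻¹ ∈ P := by
                rw [hPg]; exact conj_mem_cj hzS
              have hzPc : ∀ t ∈ P, (g * z * g⁻¹) * t = t * (g * z * g⁻¹) := by
                intro t ht
                rw [hPg, mem_cj] at ht
                have h2 := hzc _ ht
                calc g * z * g⁻¹ * t = g * (z * (g⁻¹ * t * g)) * g⁻¹ := by group
                  _ = g * ((g⁻¹ * t * g) * z) * g⁻¹ := by rw [h2]
                  _ = t * (g * z * g⁻¹) := by group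
              refine ⟨g * z * g⁻¹, ?_, ?_, ?_⟩
              · have h3 : g * z * g⁻¹ ∈ nJ 0 P :=
                  le_nJ (hmemP A hA) (mem_of_centralizes (hmemP A hA) hzP
                    (fun a ha => hzPc a ((hmemP A hA).1.1 ha)))
                rw [← hJP] at h3
                exact hJT h3
              · intro t ht
                exact hzPc t (hTP ht)
              · rw [conj_pow, hz, hgx]
                group
            · exact Or.inr (Or.inr h1)
        exact MC.false ⟨hS, hDH, hDp, hDn, hxD, hxJ, hyp, hpow, hmax, hnot⟩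
    intro hxD hxJ hyp
    exact key (orderOf x) x rfl hxD hxJ hyp

/-- **The relative local theorem.** -/
theorem local_thm [Finite G] {p : ℕ} [Fact p.Prime] : LocalThm p G := by
  intro H S D x hS hDH hDp hDn hxD hxJ hyp
  rw [thompsonSubgroupAOf_eq] at hxJ
  exact local_thm_nJ (Nat.card H) H rfl S D x hS hDH hDp hDn hxD hxJ hyp

end Cfsg.Agent.H52.Wc
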